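import Mathlib

/-!
# Transvections of the symplectic group and the embedding of one rank less

Everything is phrased through the action on column vectors.
-/

set_option autoImplicit false

namespace Cfsg.Agent.Lib.SlimSp

open Matrix

universe u

variable {F : Type u} [Field F] {n m : ℕ}

/-- column vectors -/
abbrev V (F : Type u) (n : ℕ) := Fin n ⊕ Fin n → F

/-- the symplectic group -/
abbrev G (F : Type u) [Field F] (n : ℕ) := ↥(Matrix.symplecticGroup (Fin n) F)

/-- the alternating form -/
def om (u v : V F n) : F := ∑ i, (u (.inl i) * v (.inr i) - u (.inr i) * v (.inl i))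

theorem om_add_left (u v w : V F n) : om (u + v) w = om u w + om v w := by
  simp only [om, Pi.add_apply, ← Finset.sum_add_distrib]; congr 1; funext i; ring

theorem om_add_right (u v w : V F n) : om u (v + w) = om u v + om u w := by
  simp only [om, Pi.add_apply, ← Finset.sum_add_distrib]; congr 1; funext i; ring

theorem om_smul_left (a : F) (u v : V F n) : om (a • u) v = a * om u v := by
  simp only [om, Pi.smul_apply, smul_eq_mul, Finset.mul_sum]; congr 1; funext i; ring

theorem om_smul_right (a : F) (u v : V F n) : om u (a • v) = a * om u v := by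
  simp only [om, Pi.smul_apply, smul_eq_mul, Finset.mul_sum]; congr 1; funext i; ring

theorem om_swap (u v : V F n) : om u v = -om v u := by
  simp only [om, ← Finset.sum_neg_distrib]; congr 1; funext i; ring

theorem om_self (u : V F n) : om u u = 0 := by
  simp only [om]; exact Finset.sum_eq_zero fun i _ => by ring

theorem om_zero_left (v : V F n) : om (0 : V F n) v = 0 := by simp [om]

theorem om_zero_right (v : V F n) : om v (0 : V F n) = 0 := by simp [om]

theorem om_neg_left (u v : V F n) : om (-u) v = -om u v := by
  rw [← neg_one_smul F u, om_smul_left]; ring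

theorem om_neg_right (u v : V F n) : om u (-v) = -om u v := by
  rw [← neg_one_smul F v, om_smul_right]; ring

theorem om_sub_right (u v w : V F n) : om u (v - w) = om u v - om u w := by
  rw [sub_eq_add_neg, om_add_right, om_neg_right]; ring

theorem dot_J (u v : V F n) : u ⬝ᵥ (Matrix.J (Fin n) F *ᵥ v) = -om u v := by
  simp only [Matrix.J, fromBlocks_mulVec, dotProduct, Fintype.sum_sum_type, Sum.elim_inl, Sum.elim_inr,
    zero_mulVec, neg_mulVec, one_mulVec, zero_add, add_zero, Pi.neg_apply, Function.comp_apply, om,
    ← Finset.sum_add_distrib, ← Finset.sum_neg_distrib]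
  congr 1; funext i; ring

/-- the action -/
def act (g : G F n) (u : V F n) : V F n := (g : Matrix (Fin n ⊕ Fin n) (Fin n ⊕ Fin n) F) *ᵥ u

theorem act_one (u : V F n) : act 1 u = u := by simp [act]

theorem act_mul (g h : G F n) (u : V F n) : act (g * h) u = act g (act h u) := by
  simp [act, mulVec_mulVec]

theorem act_inv_act (g : G F n) (u : V F n) : act g⁻¹ (act g u) = u := by
  rw [← act_mul, inv_mul_cancel, act_one]

theorem act_act_inv (g : G F n) (u : V F n) : act g (act g⁻¹ u) = u := by
  rw [← act_mul, mul_inv_cancel, act_one]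

theorem act_add (g : G F n) (u v : V F n) : act g (u + v) = act g u + act g v := mulVec_add _ _ _

theorem act_smul (g : G F n) (a : F) (u : V F n) : act g (a • u) = a • act g u := mulVec_smul _ _ _

theorem act_neg (g : G F n) (u : V F n) : act g (-u) = -act g u := mulVec_neg _ _

theorem act_zero (g : G F n) : act g 0 = 0 := mulVec_zero _

theorem act_inj (g : G F n) {u v : V F n} (h : act g u = act g v) : u = v := by
  rw [← act_inv_act g u, h, act_inv_act]

theorem ext_act {g h : G F n} (e : ∀ u, act g u = act h u) : g = h := by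
  refine Subtype.ext (Matrix.toLin'.injective (LinearMap.ext fun u => ?_))
  rw [Matrix.toLin'_apply, Matrix.toLin'_apply]; exact e u

theorem dot_mul_mulVec (A : Matrix (Fin n ⊕ Fin n) (Fin n ⊕ Fin n) F) (u v : V F n) :
    (A *ᵥ u) ⬝ᵥ (Matrix.J (Fin n) F *ᵥ (A *ᵥ v)) = u ⬝ᵥ ((Aᵀ * Matrix.J (Fin n) F * A) *ᵥ v) := by
  rw [← mulVec_mulVec, ← mulVec_mulVec, dotProduct_mulVec u Aᵀ, vecMul_transpose]

theorem om_act (g : G F n) (u v : V F n) : om (act g u) (act g v) = om u v := by
  rw [← neg_inj, ← dot_J, ← dot_J, act, act, dot_mul_mulVec, SymplecticGroup.mem_iff'.1 g.2]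

theorem det_symp {f : V F n →ₗ[F] V F n} (h : ∀ u v, om (f u) (f v) = om u v) :
    LinearMap.toMatrix' f ∈ Matrix.symplecticGroup (Fin n) F := by
  rw [SymplecticGroup.mem_iff']
  ext i j
  have e := h (Pi.single i 1) (Pi.single j 1)
  rw [← neg_inj, ← dot_J, ← dot_J, ← LinearMap.toMatrix'_mulVec f (Pi.single i 1),
    ← LinearMap.toMatrix'_mulVec f (Pi.single j 1), dot_mul_mulVec] at e
  simpa using e

/-- a form preserving linear map as a group element -/
def toSp (f : V F n →ₗ[F] V F n) (h : ∀ u v, om (f u) (f v) = om u v) : G F n :=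
  ⟨LinearMap.toMatrix' f, det_symp h⟩

theorem act_toSp (f : V F n →ₗ[F] V F n) (h : ∀ u v, om (f u) (f v) = om u v) (u : V F n) :
    act (toSp f h) u = f u := LinearMap.toMatrix'_mulVec f u

end Cfsg.Agent.Lib.SlimSp
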