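import Cfsg.Agent.Lib.SlimSp.Step

/-!
# The three double cosets and the extended homomorphism
-/

set_option autoImplicit false

namespace Cfsg.Agent.Lib.SlimSp

open Matrix

universe u v

variable {F : Type u} [Field F]

namespace Data

variable {p : ℕ} {H : Type v} [Group H] (D : Data F p H)

theorem W_HP {a : F} (ha : a ≠ 0) : D.W * D.HP a = D.HP a⁻¹ * D.W := by
  rw [W, HP, HP, D.l0_mul D.wv_C0.1 (D.hh_C0 _).1, D.l0_mul (D.hh_C0 _).1 D.wv_C0.1]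
  congr 1
  refine ext_basis ?_ ?_ fun x => ?_
  · simp only [act_mul, hh_left (om_ee_ff _) ha, wv_left (om_ee_ff _) one_ne_zero, act_smul, act_neg, inv_one,
      one_smul, hh_right (om_ee_ff _) (inv_ne_zero ha), inv_inv, smul_neg]
  · simp only [act_mul, hh_right (om_ee_ff _) ha, wv_right (om_ee_ff _) one_ne_zero, act_smul,
      one_smul, hh_left (om_ee_ff _) (inv_ne_zero ha)]
  · simp only [act_mul, hh_perp (om_ee0_ι x) (om_ff0_ι x), wv_perp (om_ee0_ι x) (om_ff0_ι x)]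

theorem W_sq : D.W * D.W = D.HP (-1) := by
  have hm : (-1 : F) ≠ 0 := neg_ne_zero.2 one_ne_zero
  rw [W, HP, D.l0_mul D.wv_C0.1 D.wv_C0.1]
  congr 1
  refine ext_basis ?_ ?_ fun x => ?_
  · simp only [act_mul, wv_left (om_ee_ff _) one_ne_zero, wv_right (om_ee_ff _) one_ne_zero, act_neg, inv_one,
      one_smul, hh_left (om_ee_ff _) hm, neg_smul]
  · simp only [act_mul, wv_left (om_ee_ff _) one_ne_zero, wv_right (om_ee_ff _) one_ne_zero, inv_one,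
      one_smul, hh_right (om_ee_ff _) hm, inv_neg, neg_smul]
  · simp only [act_mul, hh_perp (om_ee0_ι x) (om_ff0_ι x), wv_perp (om_ee0_ι x) (om_ff0_ι x)]

theorem HP_neg_one_ZP (z : F) : D.HP (-1) * D.ZP z = D.ZP z * D.HP (-1) := by
  rw [D.HP_ZP (neg_ne_zero.2 one_ne_zero), neg_one_sq, one_mul]

theorem sandwich {z : F} (hz : z ≠ 0) :
    D.W * D.ZP z * D.W = D.ZP (-z⁻¹) * D.HP (-z⁻¹) * D.W * D.ZP (-z⁻¹) := by
  have hb : -z⁻¹ ≠ 0 := neg_ne_zero.2 (inv_ne_zero hz)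
  rw [W, HP, ZP, ZP, D.l0_mul D.wv_C0.1 (D.te0 _), D.l0_mul (mul_mem D.wv_C0.1 (D.te0 _)) D.wv_C0.1,
    D.l0_mul (D.te0 _) (D.hh_C0 _).1, D.l0_mul (mul_mem (D.te0 _) (D.hh_C0 _).1) D.wv_C0.1,
    D.l0_mul (mul_mem (mul_mem (D.te0 _) (D.hh_C0 _).1) D.wv_C0.1) (D.te0 _)]
  congr 1
  refine ext_basis ?_ ?_ fun x => ?_
  · simp only [act_mul, act_T, wv_left (om_ee_ff _) one_ne_zero, act_add, act_smul, act_neg, om_neg_right,
      inv_one, one_smul, wv_right (om_ee_ff _) one_ne_zero, om_ee_ff, om_self, mul_zero, zero_smul, add_zero,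
      hh_right (om_ee_ff _) hb, om_smul_right, om_add_right]
    match_scalars <;> field_simp <;> ring
  · simp only [act_mul, act_T, wv_right (om_ee_ff _) one_ne_zero, wv_left (om_ee_ff _) one_ne_zero, act_add,
      act_smul, act_neg, inv_one, one_smul, om_ee_ff, om_self, mul_zero, zero_smul, add_zero,
      hh_left (om_ee_ff _) hb, hh_right (om_ee_ff _) hb, om_smul_right, om_add_right, om_neg_right]
    match_scalars <;> field_simp <;> ring
  · simp only [act_mul, act_T, hh_perp (om_ee0_ι x) (om_ff0_ι x), wv_perp (om_ee0_ι x) (om_ff0_ι x), om_ee0_ι,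
      mul_zero, zero_smul, add_zero]

/-- the opposite radical -/
noncomputable def LP (x : V F (p + 1)) : G F (p + 2) × H := D.W * D.QP x * D.W⁻¹

/-- the lower long root group -/
def NP (s : F) : G F (p + 2) × H := D.W * D.ZP s * D.W⁻¹

theorem NP_eq (c : F) : D.NP c = D.l0 (T (ff 0) c) := by
  rw [NP, W, ZP, D.l0_inv D.wv_C0.1, D.l0_mul D.wv_C0.1 (D.te0 _),
    D.l0_mul (mul_mem D.wv_C0.1 (D.te0 _)) (inv_mem D.wv_C0.1), T_conj, wv_left (om_ee_ff _) one_ne_zero,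
    inv_one, one_smul, ← neg_one_smul F, T_smul, neg_one_sq, one_mul]

theorem R_base (s : F) :
    D.LP (ee 0) * D.ZP s = D.ZP s * D.QP (s • ee 0) * D.KP (T (ee 0) s) * D.LP (ee 0) := by
  have e1 : D.KP (T (ee 0) s) = D.l0 (T (ι (ee 0)) s) := Prod.ext (emb_T _ _) (D.agree10 s).symm
  have e2 : D.QP (ee 0) = D.l0 (E (ee 0) ((1 : F) • ι (ee 0))) := by
    rw [← D.QP_smul_ee, one_smul]
  have hm : D.l0 (E (ee 0) ((1 : F) • ι (ee 0))) = D.A := rfl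
  have e3 : D.LP (ee 0) = D.l0 (E (-ff 0) (ι (ee 0))) ∧ E (-ff 0) (ι (ee 0 : V F (p + 1))) ∈ D.A0 := by
    have : E (-ff 0) (ι (ee 0 : V F (p + 1))) =
        wv (ee 0) (ff 0) 1 * E (ee 0) ((1 : F) • ι (ee 0)) * (wv (ee 0) (ff 0) 1)⁻¹ := by
      rw [E_conj, wv_left (om_ee_ff _) one_ne_zero, wv_perp (by simp) (by simp), inv_one, one_smul, one_smul]
    rw [this]
    refine ⟨?_, mul_mem (mul_mem D.wv_C0.1 (D.e0 1)) (inv_mem D.wv_C0.1)⟩
    rw [LP, W, e2, D.l0_inv D.wv_C0.1, D.l0_mul D.wv_C0.1 (D.e0 1),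
      D.l0_mul (mul_mem D.wv_C0.1 (D.e0 1)) (inv_mem D.wv_C0.1)]
  rw [e3.1, e1, D.QP_smul_ee, ZP, D.l0_mul e3.2 (D.te0 _), D.l0_mul (D.te0 _) (D.e0 _),
    D.l0_mul (mul_mem (D.te0 _) (D.e0 _)) (D.t10 _), D.l0_mul (mul_mem (mul_mem (D.te0 _) (D.e0 _)) (D.t10 _)) e3.2]
  congr 1
  have hx : om (ee 0) (s • ι (ee 0 : V F (p + 1))) = 0 := by rw [om_smul_right, om_ee0_ι, mul_zero]
  have hx' : om (-ff 0) (ι (ee 0 : V F (p + 1))) = 0 := by rw [om_neg_left, om_ff0_ι, neg_zero]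
  refine ext_act fun u => ?_
  simp only [act_mul, act_T, act_E hx, act_E hx', om_add_right, om_add_left, om_smul_left, om_smul_right, om_neg_left,
    om_neg_right, om_self, om_ee0_ι, om_ι_ee0, om_ff0_ι, om_ι_ff0, om_ee_ff, om_ff_ee]
  match_scalars <;> ring

theorem LP_zero : D.LP 0 = 1 := by rw [LP, QP_zero, mul_one, mul_inv_cancel]

theorem KP_LP (k : G F (p + 1)) (x : V F (p + 1)) : D.KP k * D.LP x = D.LP (act k x) * D.KP k := by
  rw [LP, LP]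
  calc _ = (D.KP k * D.W) * D.QP x * D.W⁻¹ := by group
    _ = D.W * (D.KP k * D.QP x) * D.W⁻¹ := by rw [(D.KP_W k).eq]; group
    _ = D.W * D.QP (act k x) * (D.KP k * D.W⁻¹) := by rw [D.KP_QP]; group
    _ = _ := by rw [(D.KP_W k).inv_right.eq]; group

theorem R_rule (x : V F (p + 1)) (s : F) :
    ∃ (x' : V F (p + 1)) (k : G F (p + 1)), D.LP x * D.ZP s = D.ZP s * D.QP x' * D.KP k * D.LP x := by
  by_cases hx : x = 0
  · exact ⟨0, 1, by rw [hx, LP_zero, QP_zero, map_one, one_mul, mul_one, mul_one, mul_one]⟩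
  obtain ⟨j, hj⟩ := trans_vec (F := F) (ee_ne_zero (0 : Fin (p + 1))) hx
  refine ⟨act j (s • ee 0), j * T (ee 0) s * j⁻¹, ?_⟩
  have eL : D.LP x = D.KP j * D.LP (ee 0) * (D.KP j)⁻¹ := by rw [D.KP_LP, hj, mul_inv_cancel_right]
  have eQ : D.QP (act j (s • ee 0)) = D.KP j * D.QP (s • ee 0) * (D.KP j)⁻¹ := by
    rw [D.KP_QP, mul_inv_cancel_right]
  rw [eL, eQ, map_mul, map_mul, map_inv]
  calc _ = D.KP j * D.LP (ee 0) * ((D.KP j)⁻¹ * D.ZP s) := by group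
    _ = D.KP j * (D.LP (ee 0) * D.ZP s) * (D.KP j)⁻¹ := by rw [(D.KP_ZP j s).inv_left.eq]; group
    _ = (D.KP j * D.ZP s) * (D.QP (s • ee 0) * D.KP (T (ee 0) s) * D.LP (ee 0)) * (D.KP j)⁻¹ := by
      rw [D.R_base]; group
    _ = _ := by rw [(D.KP_ZP j s).eq]; group

theorem W_inv : D.W⁻¹ = D.W * D.HP (-1) := by
  rw [inv_eq_iff_mul_eq_one, ← mul_assoc, W_sq, D.HP_mul (neg_ne_zero.2 one_ne_zero) (neg_ne_zero.2 one_ne_zero),
    show (-1 : F) * -1 = 1 by ring, HP_one]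

theorem W_ZP (z : F) : D.W⁻¹ * D.ZP z * D.W = D.NP z := by
  rw [NP]
  calc _ = D.W⁻¹ * (D.ZP z * (D.W * D.W)) * D.W⁻¹ := by group
    _ = D.W⁻¹ * (D.W * D.W * D.ZP z) * D.W⁻¹ := by rw [W_sq, HP_neg_one_ZP]
    _ = _ := by group

theorem N_rule (t : F) (y : V F (p + 1)) :
    ∃ (x' : V F (p + 1)) (k : G F (p + 1)), D.NP t * D.QP y = D.QP y * D.KP k * D.LP x' * D.NP t := by
  obtain ⟨x', k, e⟩ := D.R_rule y (-t)
  refine ⟨-x', k⁻¹, ?_⟩
  have hy : D.W * D.LP y * D.W⁻¹ = D.QP (-y) := by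
    rw [LP]
    calc _ = (D.W * D.W) * D.QP y * (D.W * D.W)⁻¹ := by group
      _ = _ := by rw [W_sq, D.HP_QP (neg_ne_zero.2 one_ne_zero), mul_inv_cancel_right, neg_one_smul]
  have e' : D.QP (-y) * D.NP (-t) = D.NP (-t) * D.LP x' * D.KP k * D.QP (-y) := by
    rw [← hy, NP, LP, LP]
    calc _ = D.W * (D.LP y * D.ZP (-t)) * D.W⁻¹ := by rw [LP]; group
      _ = D.W * D.ZP (-t) * D.QP x' * (D.KP k * D.W⁻¹) * (D.W * D.LP y * D.W⁻¹) := by rw [e]; group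
      _ = _ := by rw [(D.KP_W k).inv_right.eq, LP]; group
  have hN : (D.NP (-t))⁻¹ = D.NP t := by
    rw [NP, NP, ZP, ZP, _root_.mul_inv_rev, _root_.mul_inv_rev, inv_inv, D.l0_inv (D.te0 _), T_inv, neg_neg,
      ← mul_assoc]
  have hL : (D.LP x')⁻¹ = D.LP (-x') := by
    rw [LP, LP, ← D.QP_inv]; group
  have := congrArg (·⁻¹) e'
  simp only [_root_.mul_inv_rev, hN, hL, D.QP_inv, neg_neg, ← map_inv] at this
  rw [this]
  simp only [mul_assoc]

/-- the lift of the stabilizer of the first line -/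
def InP (g : G F (p + 2) × H) : Prop :=
  ∃ (a : F) (x : V F (p + 1)) (z : F) (k : G F (p + 1)), a ≠ 0 ∧ g = D.HP a * D.QP x * D.ZP z * D.KP k

theorem QP_HP {a : F} (ha : a ≠ 0) (x : V F (p + 1)) : D.QP x * D.HP a = D.HP a * D.QP (a⁻¹ • x) := by
  rw [D.HP_QP ha, smul_smul, mul_inv_cancel₀ ha, one_smul]

theorem ZP_HP {a : F} (ha : a ≠ 0) (z : F) : D.ZP z * D.HP a = D.HP a * D.ZP ((a ^ 2)⁻¹ * z) := by
  rw [D.HP_ZP ha, mul_inv_cancel_left₀ (pow_ne_zero 2 ha)]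

theorem InP_mul {g h : G F (p + 2) × H} (hg : D.InP g) (hh' : D.InP h) : D.InP (g * h) := by
  obtain ⟨a, x, z, k, ha, rfl⟩ := hg
  obtain ⟨b, y, w, j, hb, rfl⟩ := hh'
  refine ⟨a * b, b⁻¹ • x + act k y, (b ^ 2)⁻¹ * z + om (b⁻¹ • x) (act k y) + w, k * j, mul_ne_zero ha hb, ?_⟩
  calc _ = D.HP a * D.QP x * D.ZP z * (D.KP k * D.HP b) * D.QP y * D.ZP w * D.KP j := by group
    _ = D.HP a * D.QP x * (D.ZP z * D.HP b) * (D.KP k * D.QP y) * D.ZP w * D.KP j := by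
      rw [(D.KP_HP k b).eq]; group
    _ = D.HP a * (D.QP x * D.HP b) * (D.ZP ((b ^ 2)⁻¹ * z) * D.QP (act k y)) * (D.KP k * D.ZP w) * D.KP j := by
      rw [D.ZP_HP hb, D.KP_QP]; group
    _ = (D.HP a * D.HP b) * (D.QP (b⁻¹ • x) * D.QP (act k y)) * (D.ZP ((b ^ 2)⁻¹ * z) * D.ZP w) *
        (D.KP k * D.KP j) := by
      rw [D.QP_HP hb, (D.ZP_QP _ _).eq, (D.KP_ZP k w).eq]; group
    _ = D.HP (a * b) * D.QP (b⁻¹ • x + act k y) *
        (D.ZP (om (b⁻¹ • x) (act k y)) * D.ZP ((b ^ 2)⁻¹ * z + w)) * D.KP (k * j) := by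
      rw [D.HP_mul ha hb, D.QP_mul, ZP_add, map_mul]; group
    _ = _ := by rw [ZP_add]; congr 3; ring

theorem InP_HP {a : F} (ha : a ≠ 0) : D.InP (D.HP a) :=
  ⟨a, 0, 0, 1, ha, by rw [QP_zero, ZP_zero, map_one, mul_one, mul_one, mul_one]⟩

theorem InP_QP (x : V F (p + 1)) : D.InP (D.QP x) :=
  ⟨1, x, 0, 1, one_ne_zero, by rw [HP_one, ZP_zero, map_one, one_mul, mul_one, mul_one]⟩

theorem InP_ZP (z : F) : D.InP (D.ZP z) :=
  ⟨1, 0, z, 1, one_ne_zero, by rw [HP_one, QP_zero, map_one, one_mul, one_mul, mul_one]⟩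

theorem InP_KP (k : G F (p + 1)) : D.InP (D.KP k) :=
  ⟨1, 0, 0, k, one_ne_zero, by rw [HP_one, QP_zero, ZP_zero, one_mul, one_mul, one_mul]⟩

theorem InP_inv {g : G F (p + 2) × H} (hg : D.InP g) : D.InP g⁻¹ := by
  obtain ⟨a, x, z, k, ha, rfl⟩ := hg
  rw [_root_.mul_inv_rev, _root_.mul_inv_rev, _root_.mul_inv_rev, ← map_inv, D.HP_inv ha, D.QP_inv,
    show (D.ZP z)⁻¹ = D.ZP (-z) from inv_eq_of_mul_eq_one_right (by rw [ZP_add, add_neg_cancel, ZP_zero])]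
  exact D.InP_mul (D.InP_KP _) (D.InP_mul (D.InP_ZP _) (D.InP_mul (D.InP_QP _) (D.InP_HP (inv_ne_zero ha))))

/-- the big double coset -/
def InW (g : G F (p + 2) × H) : Prop := ∃ a b, D.InP a ∧ D.InP b ∧ g = a * D.W * b

theorem big_of_ne {z : F} (hz : z ≠ 0) (x : V F (p + 1)) : D.InW (D.W * D.QP x * D.ZP z * D.W) := by
  set b := -z⁻¹ with hb'
  have hb : b ≠ 0 := neg_ne_zero.2 (inv_ne_zero hz)
  obtain ⟨x', k, e⟩ := D.R_rule x b
  refine ⟨D.ZP b * D.QP x' * D.KP k, D.QP x * D.HP b⁻¹ * D.ZP b,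
    D.InP_mul (D.InP_mul (D.InP_ZP _) (D.InP_QP _)) (D.InP_KP _),
    D.InP_mul (D.InP_mul (D.InP_QP _) (D.InP_HP (inv_ne_zero hb))) (D.InP_ZP _), ?_⟩
  have hH : D.W⁻¹ * D.HP b * D.W = D.HP b⁻¹ := by
    rw [mul_assoc, inv_mul_eq_iff_eq_mul, D.W_HP (inv_ne_zero hb), inv_inv]
  calc _ = D.LP x * (D.W * D.ZP z * D.W) := by rw [LP]; group
    _ = (D.LP x * D.ZP b) * D.HP b * D.W * D.ZP b := by rw [D.sandwich hz, ← hb']; group
    _ = D.ZP b * D.QP x' * D.KP k * D.W * D.QP x * (D.W⁻¹ * D.HP b * D.W) * D.ZP b := by rw [e, LP]; group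
    _ = _ := by rw [hH]; group

theorem trich {g : G F (p + 2) × H} (hg : D.InP g) :
    D.InP (D.W * g * D.W) ∨ D.InW (D.W * g * D.W) ∨
      ∃ (a : F) (x : V F (p + 1)) (k : G F (p + 1)), a ≠ 0 ∧ x ≠ 0 ∧
        D.W * g * D.W = D.HP a * (D.W * D.QP x * D.W) * D.KP k := by
  obtain ⟨a, x, z, k, ha, rfl⟩ := hg
  have e : D.W * (D.HP a * D.QP x * D.ZP z * D.KP k) * D.W =
      D.HP a⁻¹ * (D.W * D.QP x * D.ZP z * D.W) * D.KP k := by
    calc _ = (D.W * D.HP a) * D.QP x * D.ZP z * (D.KP k * D.W) := by group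
      _ = _ := by rw [D.W_HP ha, (D.KP_W k).eq]; group
  rw [e]
  by_cases hz : z = 0
  · subst hz
    rw [ZP_zero, mul_one]
    by_cases hx : x = 0
    · subst hx
      left
      rw [QP_zero, mul_one, W_sq]
      exact D.InP_mul (D.InP_mul (D.InP_HP (inv_ne_zero ha)) (D.InP_HP (neg_ne_zero.2 one_ne_zero))) (D.InP_KP _)
    · exact Or.inr (Or.inr ⟨a⁻¹, x, k, inv_ne_zero ha, hx, rfl⟩)
  · obtain ⟨u, w, hu, hw, e'⟩ := D.big_of_ne hz x
    exact Or.inr (Or.inl ⟨D.HP a⁻¹ * u, w * D.KP k, D.InP_mul (D.InP_HP (inv_ne_zero ha)) hu,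
      D.InP_mul hw (D.InP_KP _), by rw [e']; group⟩)

/-- everything -/
def InU (g : G F (p + 2) × H) : Prop :=
  D.InP g ∨ D.InW g ∨ ∃ a b c, D.InP a ∧ D.InP b ∧ D.InP c ∧ g = a * D.W * b * D.W * c

theorem InP_mul_InU {g u : G F (p + 2) × H} (hg : D.InP g) (hu : D.InU u) : D.InU (g * u) := by
  rcases hu with hu | ⟨a, b, ha, hb, rfl⟩ | ⟨a, b, c, ha, hb, hc, rfl⟩
  · exact Or.inl (D.InP_mul hg hu)
  · exact Or.inr (Or.inl ⟨g * a, b, D.InP_mul hg ha, hb, by group⟩)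
  · exact Or.inr (Or.inr ⟨g * a, b, c, D.InP_mul hg ha, hb, hc, by group⟩)

theorem InU_mul_InP {g u : G F (p + 2) × H} (hu : D.InU u) (hg : D.InP g) : D.InU (u * g) := by
  rcases hu with hu | ⟨a, b, ha, hb, rfl⟩ | ⟨a, b, c, ha, hb, hc, rfl⟩
  · exact Or.inl (D.InP_mul hu hg)
  · exact Or.inr (Or.inl ⟨a, b * g, ha, D.InP_mul hb hg, by group⟩)
  · exact Or.inr (Or.inr ⟨a, b, c * g, ha, hb, D.InP_mul hc hg, by group⟩)

theorem core {g : G F (p + 2) × H} (hg : D.InP g) (x : V F (p + 1)) :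
    D.InU (D.W * D.QP x * D.W * g * D.W) := by
  obtain ⟨a, y, z, k, ha, rfl⟩ := hg
  have e : D.W * D.QP x * D.W * (D.HP a * D.QP y * D.ZP z * D.KP k) * D.W =
      D.HP a * (D.W * D.QP (a • x) * (D.W * D.QP y * D.ZP z * D.W)) * D.KP k := by
    calc _ = D.W * D.QP x * (D.W * D.HP a) * D.QP y * D.ZP z * (D.KP k * D.W) := by group
      _ = D.W * (D.QP x * D.HP a⁻¹) * D.W * D.QP y * D.ZP z * D.W * D.KP k := by
        rw [D.W_HP ha, (D.KP_W k).eq]; group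
      _ = (D.W * D.HP a⁻¹) * D.QP (a • x) * D.W * D.QP y * D.ZP z * D.W * D.KP k := by
        rw [D.QP_HP (inv_ne_zero ha), inv_inv]; group
      _ = _ := by rw [D.W_HP (inv_ne_zero ha), inv_inv]; group
  rw [e]
  refine D.InU_mul_InP (D.InP_mul_InU (D.InP_HP ha) ?_) (D.InP_KP _)
  set x₁ := a • x
  by_cases hz : z = 0
  · subst hz
    rw [ZP_zero, mul_one]
    obtain ⟨u, w, hu, hw, e'⟩ := D.big_of_ne one_ne_zero x₁
    obtain ⟨x', j, eN⟩ := D.N_rule (-1) y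
    refine Or.inr (Or.inr ⟨u, w * (D.QP y * D.KP j), D.QP x' * D.ZP (-1), hu,
      D.InP_mul hw (D.InP_mul (D.InP_QP _) (D.InP_KP _)), D.InP_mul (D.InP_QP _) (D.InP_ZP _), ?_⟩)
    calc _ = (D.W * D.QP x₁ * (D.ZP 1 * D.ZP (-1)) * D.W) * D.QP y * D.W := by
          rw [ZP_add, add_neg_cancel, ZP_zero]; group
      _ = (D.W * D.QP x₁ * D.ZP 1 * D.W) * ((D.W⁻¹ * D.ZP (-1) * D.W) * D.QP y) * D.W := by group
      _ = u * D.W * w * (D.QP y * D.KP j * D.LP x' * D.NP (-1)) * D.W := by rw [e', W_ZP, eN]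
      _ = _ := by rw [LP, NP]; group
  · obtain ⟨u, w, hu, hw, e'⟩ := D.big_of_ne hz y
    refine Or.inr (Or.inr ⟨1, D.QP x₁ * u, w, ?_, D.InP_mul (D.InP_QP _) hu, hw, by rw [e']; group⟩)
    exact ⟨1, 0, 0, 1, one_ne_zero, by rw [HP_one, QP_zero, ZP_zero, map_one]; simp⟩

theorem InP_one : D.InP 1 :=
  ⟨1, 0, 0, 1, one_ne_zero, by rw [HP_one, QP_zero, ZP_zero, map_one]; simp⟩

theorem W_mul_InU {u : G F (p + 2) × H} (hu : D.InU u) : D.InU (D.W * u) := by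
  rcases hu with hu | ⟨a, b, ha, hb, rfl⟩ | ⟨a, b, c, ha, hb, hc, rfl⟩
  · exact Or.inr (Or.inl ⟨1, u, D.InP_one, hu, by group⟩)
  · exact Or.inr (Or.inr ⟨1, a, b, D.InP_one, ha, hb, by group⟩)
  · rcases D.trich ha with h | ⟨p1, p2, h1, h2, h⟩ | ⟨t, x, k, ht, -, h⟩
    · refine Or.inr (Or.inl ⟨D.W * a * D.W * b, c, D.InP_mul h hb, hc, by group⟩)
    · refine Or.inr (Or.inr ⟨p1, p2 * b, c, h1, D.InP_mul h2 hb, hc, ?_⟩)
      calc _ = (D.W * a * D.W) * b * D.W * c := by group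
        _ = _ := by rw [h]; group
    · have e : D.W * (a * D.W * b * D.W * c) = D.HP t * (D.W * D.QP x * D.W * (D.KP k * b) * D.W) * c := by
        calc _ = (D.W * a * D.W) * b * D.W * c := by group
          _ = _ := by rw [h]; group
      rw [e]
      exact D.InU_mul_InP (D.InP_mul_InU (D.InP_HP ht) (D.core (D.InP_mul (D.InP_KP k) hb) x)) hc

theorem W_inv_mul_InU {u : G F (p + 2) × H} (hu : D.InU u) : D.InU (D.W⁻¹ * u) := by
  rw [W_inv, mul_assoc]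
  exact D.W_mul_InU (D.InP_mul_InU (D.InP_HP (neg_ne_zero.2 one_ne_zero)) hu)

theorem InU_mul {g u : G F (p + 2) × H} (hg : D.InU g) (hu : D.InU u) : D.InU (g * u) := by
  rcases hg with hg | ⟨a, b, ha, hb, rfl⟩ | ⟨a, b, c, ha, hb, hc, rfl⟩
  · exact D.InP_mul_InU hg hu
  · rw [mul_assoc, mul_assoc]
    exact D.InP_mul_InU ha (D.W_mul_InU (D.InP_mul_InU hb hu))
  · rw [mul_assoc, mul_assoc, mul_assoc, mul_assoc]
    exact D.InP_mul_InU ha (D.W_mul_InU (D.InP_mul_InU hb (D.W_mul_InU (D.InP_mul_InU hc hu))))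

theorem InU_inv {g : G F (p + 2) × H} (hg : D.InU g) : D.InU g⁻¹ := by
  have hP : ∀ {q}, D.InP q → D.InU q⁻¹ := fun hq => Or.inl (D.InP_inv hq)
  have hW : D.InU D.W⁻¹ := by
    simpa using D.W_inv_mul_InU (Or.inl D.InP_one)
  rcases hg with hg | ⟨a, b, ha, hb, rfl⟩ | ⟨a, b, c, ha, hb, hc, rfl⟩
  · exact hP hg
  · simp only [_root_.mul_inv_rev]
    exact D.InU_mul (hP hb) (D.InU_mul hW (hP ha))
  · simp only [_root_.mul_inv_rev]
    exact D.InU_mul (hP hc) (D.InU_mul hW (D.InU_mul (hP hb) (D.InU_mul hW (hP ha))))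

/-- the graph -/
def Gr : Subgroup (G F (p + 2) × H) where
  carrier := {g | D.InU g}
  one_mem' := Or.inl D.InP_one
  mul_mem' := D.InU_mul
  inv_mem' := D.InU_inv

theorem InP_fst {g : G F (p + 2) × H} (hg : D.InP g) : ∃ a : F, a ≠ 0 ∧ act g.1 (ee 0) = a • ee 0 := by
  obtain ⟨a, x, z, k, ha, rfl⟩ := hg
  refine ⟨a, ha, ?_⟩
  show act (hh (ee 0) (ff 0) a * (D.QP x).1 * T (ee 0) z * emb k) (ee 0) = _
  rw [act_mul, act_mul, act_mul, emb_ee, D.QP_fst, act_T, om_self, mul_zero, zero_smul, add_zero,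
    act_E (om_ee0_ι x), om_self, om_ι_ee0, zero_smul, zero_smul, add_zero, add_zero, hh_left (om_ee_ff _) ha]

theorem InP_kernel {g : G F (p + 2) × H} (hg : D.InP g) (h1 : g.1 = 1) : g = 1 := by
  obtain ⟨a, x, z, k, ha, rfl⟩ := hg
  have e : hh (ee 0) (ff 0) a * (E (ee 0) (ι x) * T (ee 0) z * emb k) = 1 := by
    rw [← h1, ← D.QP_fst x]
    simp only [mul_assoc]
    rfl
  have ea : a = 1 := by
    have := congrArg (fun g => act g (ee 0) (.inl 0)) e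
    simpa [act_mul, act_T, act_E, om_self, act_one, hh_left (om_ee_ff _) ha, ee_apply_inl] using this
  subst ea
  rw [hh, mul_inv_cancel, one_mul] at e
  have ef := congrArg (fun g => act g (ff 0)) e
  simp only [act_mul, emb_ff, act_T, act_E (om_ee0_ι _), om_ee_ff, om_add_right, om_smul_right, om_self, om_ι_ee0,
    om_ι_ff0, act_one] at ef
  have hz : z = 0 := by simpa [ee_apply_inl, ff_apply_inl] using congrFun ef (.inl 0)
  have hx : x = 0 := by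
    simpa [tl_add, tl_smul, tl_ee0, tl_ι, hz, show tl (ff 0 : V F (p + 2)) = 0 from by
      funext j; rcases j with j | j <;> simp [tl, ff_apply_inl, ff_apply_inr, Fin.succ_ne_zero]]
      using congrArg tl ef
  subst hz hx
  rw [ι_zero, E_zero, T_zero, one_mul, one_mul] at e
  have hk : k = 1 := emb_inj (e.trans (map_one emb).symm)
  rw [hk, map_one, HP_one, QP_zero, ZP_zero, one_mul, one_mul, one_mul]

theorem InW_fst {g : G F (p + 2) × H} (hg : D.InW g) : g.1 ≠ 1 := by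
  obtain ⟨a, b, ha, hb, rfl⟩ := hg
  intro h
  obtain ⟨s, hs, es⟩ := D.InP_fst (D.InP_inv ha)
  obtain ⟨t, ht, et⟩ := D.InP_fst (D.InP_inv hb)
  have e : wv (ee 0) (ff 0) 1 = (a⁻¹).1 * (b⁻¹).1 := by
    show (D.W).1 = _
    rw [show D.W = a⁻¹ * (a * D.W * b) * b⁻¹ by group, Prod.fst_mul, Prod.fst_mul, h, mul_one]
  have := congrArg (fun g => act g (ee 0) (.inr 0)) e
  simp only [wv_left (om_ee_ff _) one_ne_zero, act_mul, et, act_smul, es] at this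
  simp [ee_apply_inr, ff_apply_inr] at this

theorem kernel {g : G F (p + 2) × H} (hg : D.InU g) (h1 : g.1 = 1) : g = 1 := by
  rcases hg with hg | hg | ⟨a, b, c, ha, hb, hc, rfl⟩
  · exact D.InP_kernel hg h1
  · exact absurd h1 (D.InW_fst hg)
  · rcases D.trich hb with h | ⟨p1, p2, h1', h2', h⟩ | ⟨t, x, k, ht, hx, h⟩
    · refine D.InP_kernel ?_ h1
      rw [show a * D.W * b * D.W * c = a * (D.W * b * D.W) * c by group]
      exact D.InP_mul (D.InP_mul ha h) hc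
    · refine absurd h1 (D.InW_fst ⟨a * p1, p2 * c, D.InP_mul ha h1', D.InP_mul h2' hc, ?_⟩)
      rw [show a * D.W * b * D.W * c = a * (D.W * b * D.W) * c by group, h]; group
    · exfalso
      have hA : D.InP (a * D.HP t) := D.InP_mul ha (D.InP_HP ht)
      have hB : D.InP (D.KP k * c) := D.InP_mul (D.InP_KP k) hc
      obtain ⟨s, -, es⟩ := D.InP_fst (D.InP_inv hA)
      obtain ⟨r, -, er⟩ := D.InP_fst (D.InP_inv hB)
      have e : (D.W * D.QP x * D.W).1 = ((a * D.HP t)⁻¹).1 * ((D.KP k * c)⁻¹).1 := by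
        rw [show D.W * D.QP x * D.W = (a * D.HP t)⁻¹ * (a * D.W * b * D.W * c) * (D.KP k * c)⁻¹ by
          rw [show a * D.W * b * D.W * c = a * (D.W * b * D.W) * c by group, h]; group,
          Prod.fst_mul, Prod.fst_mul, h1, mul_one]
      have e' := congrArg (fun g => tl (act g (ee 0))) e
      have hw : (D.W * D.QP x * D.W).1 = wv (ee 0) (ff 0) 1 * E (ee 0) (ι x) * wv (ee 0) (ff 0) 1 := by
        rw [Prod.fst_mul, Prod.fst_mul, D.QP_fst]; rfl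
      rw [hw] at e'
      simp only [act_mul, er, act_smul, es, wv_left (om_ee_ff _) one_ne_zero, inv_one, one_smul, act_neg,
        act_E (om_ee0_ι x), om_ι_ff0, om_ee_ff, act_add, zero_smul, add_zero,
        wv_perp (om_ee0_ι x) (om_ff0_ι x), wv_right (om_ee_ff _) one_ne_zero, smul_smul] at e'
      rw [tl_smul, tl_ee0, smul_zero] at e'
      refine hx ?_
      have e2 : tl (ff 0 : V F (p + 2)) = 0 := by
        funext j; rcases j with j | j <;> simp [tl, ff_apply_inl, ff_apply_inr, Fin.succ_ne_zero]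
      rw [← neg_one_smul F, tl_smul, tl_add, tl_ι] at e'
      simpa [e2, tl_ee0] using e'

theorem exists_ext : ∃ Φ : G F (p + 2) →* H, (∀ k, Φ (emb k) = D.φ k) ∧ (∀ c, Φ (T (ee 0) c) = D.ψ0 (T (ee 0) c)) ∧
    (∀ c, Φ (T (ff 0) c) = D.ψ0 (T (ff 0) c)) ∧
    ∀ c : F, Φ (E (ee 0) (c • ι (ee 0))) = D.ψ0 (E (ee 0) (c • ι (ee 0))) := by
  let π : D.Gr →* G F (p + 2) := (MonoidHom.fst _ _).comp D.Gr.subtype
  have mK : ∀ k, D.KP k ∈ D.Gr := fun k => Or.inl (D.InP_KP k)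
  have mZ : ∀ c, D.l0 (T (ee 0) c) ∈ D.Gr := fun c => Or.inl (D.InP_ZP c)
  have mW : D.W ∈ D.Gr := Or.inr (Or.inl ⟨1, 1, D.InP_one, D.InP_one, by group⟩)
  have mN : ∀ c, D.l0 (T (ff 0) c) ∈ D.Gr := fun c => by
    rw [← D.NP_eq]; exact mul_mem (mul_mem mW (mZ c)) (inv_mem mW)
  have mE : ∀ c : F, D.l0 (E (ee 0) (c • ι (ee 0))) ∈ D.Gr := fun c => by
    rw [← D.QP_smul_ee]; exact Or.inl (D.InP_QP _)
  have hinj : Function.Injective π := (injective_iff_map_eq_one π).2 fun g hg => Subtype.ext (D.kernel g.2 hg)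
  have hsur : Function.Surjective π := by
    rw [← MonoidHom.range_eq_top, ← top_le_iff, ← gen (F := F) (p + 2), Subgroup.closure_le]
    rintro g (⟨j, c, rfl⟩ | ⟨j, c, rfl⟩ | ⟨a, b, c, hab, rfl⟩)
    · induction j using Fin.cases with
      | zero => exact ⟨⟨_, mZ c⟩, rfl⟩
      | succ i => exact ⟨⟨_, mK (T (ee i) c)⟩, by rw [← ι_ee, ← emb_T]; rfl⟩
    · induction j using Fin.cases with
      | zero => exact ⟨⟨_, mN c⟩, rfl⟩
      | succ i => exact ⟨⟨_, mK (T (ff i) c)⟩, by rw [← ι_ff, ← emb_T]; rfl⟩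
    · induction a using Fin.cases with
      | zero =>
        have hb : b = (0 : Fin (p + 1)).succ := Fin.ext (by simpa using hab.symm)
        exact ⟨⟨_, mE c⟩, by rw [hb, ← ι_ee]; rfl⟩
      | succ i =>
        induction b using Fin.cases with
        | zero => simp at hab
        | succ l => exact ⟨⟨_, mK (E (ee i) (c • ee l))⟩, by rw [← ι_ee i, ← ι_ee l, ← ι_smul, ← emb_E]; rfl⟩
  let e := MulEquiv.ofBijective π ⟨hinj, hsur⟩
  refine ⟨((MonoidHom.snd _ _).comp D.Gr.subtype).comp e.symm.toMonoidHom, ?_⟩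
  have key : ∀ (g : G F (p + 2) × H) (hg : g ∈ D.Gr),
      ((MonoidHom.snd _ _).comp D.Gr.subtype).comp e.symm.toMonoidHom g.1 = g.2 := fun g hg => by
    have : e.symm g.1 = ⟨g, hg⟩ := e.injective (by rw [MulEquiv.apply_symm_apply]; rfl)
    show ((e.symm g.1 : D.Gr) : G F (p + 2) × H).2 = g.2
    rw [this]
  exact ⟨fun k => key _ (mK k), fun c => key _ (mZ c), fun c => key _ (mN c), fun c => key _ (mE c)⟩

end Data

end Cfsg.Agent.Lib.SlimSp
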