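import Cfsg.Agent.Lib.SlimSp.Basic

/-!
# Basis vectors, transvections, Eichler elements, the embedding
-/

set_option autoImplicit false

namespace Cfsg.Agent.Lib.SlimSp

open Matrix

universe u

variable {F : Type u} [Field F] {n m : ℕ}

/-- left basis vector -/
def ee (j : Fin n) : V F n := Pi.single (Sum.inl j) 1

/-- right basis vector -/
def ff (j : Fin n) : V F n := Pi.single (Sum.inr j) 1

theorem ee_apply_inl (i j : Fin n) : (ee i : V F n) (.inl j) = if j = i then 1 else 0 := by
  simp [ee, Pi.single_apply]

theorem ee_apply_inr (i j : Fin n) : (ee i : V F n) (.inr j) = 0 := by simp [ee]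

theorem ff_apply_inr (i j : Fin n) : (ff i : V F n) (.inr j) = if j = i then 1 else 0 := by
  simp [ff, Pi.single_apply]

theorem ff_apply_inl (i j : Fin n) : (ff i : V F n) (.inl j) = 0 := by simp [ff]

theorem om_ee (i : Fin n) (v : V F n) : om (ee i) v = v (.inr i) := by
  rw [om, Finset.sum_eq_single i]
  · simp [ee_apply_inl, ee_apply_inr]
  · intro j _ h; simp [ee_apply_inl, ee_apply_inr, h]
  · simp

theorem om_ff (i : Fin n) (v : V F n) : om (ff i) v = -v (.inl i) := by
  rw [om, Finset.sum_eq_single i]
  · simp [ff_apply_inl, ff_apply_inr]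
  · intro j _ h; simp [ff_apply_inl, ff_apply_inr, h]
  · simp

theorem ee_ne_zero (j : Fin n) : (ee j : V F n) ≠ 0 := fun h => by
  have := congrFun h (.inl j); simp [ee] at this

/-- nondegeneracy -/
theorem exists_om_ne (u : V F n) (hu : u ≠ 0) : ∃ v, om u v ≠ 0 := by
  by_contra hc
  push_neg at hc
  refine hu (funext fun i => ?_)
  rcases i with i | i
  · have := hc (ff i)
    rw [om_swap, om_ff, neg_neg] at this
    exact this
  · have := hc (ee i)
    rw [om_swap, om_ee, neg_eq_zero] at this
    exact this

/-- transvection as a linear map -/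
def Tlin (v : V F n) (c : F) : V F n →ₗ[F] V F n where
  toFun u := u + (c * om v u) • v
  map_add' u w := by rw [om_add_right, mul_add, add_smul]; abel
  map_smul' a u := by rw [om_smul_right, RingHom.id_apply, smul_add, smul_smul]; ring_nf

theorem Tlin_symp (v : V F n) (c : F) (u w : V F n) : om (Tlin v c u) (Tlin v c w) = om u w := by
  simp only [Tlin, LinearMap.coe_mk, AddHom.coe_mk, om_add_left, om_add_right, om_smul_left, om_smul_right, om_self]
  rw [om_swap u v]; ring

/-- transvection -/
def T (v : V F n) (c : F) : G F n := toSp (Tlin v c) (Tlin_symp v c)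

theorem act_T (v : V F n) (c : F) (u : V F n) : act (T v c) u = u + (c * om v u) • v := act_toSp _ _ u

theorem T_add (v : V F n) (c d : F) : T v c * T v d = T v (c + d) := by
  refine ext_act fun u => ?_
  simp only [act_mul, act_T, om_add_right, om_smul_right, om_self]
  match_scalars <;> ring

theorem T_zero (v : V F n) : T v 0 = 1 := by
  refine ext_act fun u => ?_
  simp [act_T, act_one]

theorem T_inv (v : V F n) (c : F) : (T v c)⁻¹ = T v (-c) :=
  inv_eq_of_mul_eq_one_right (by rw [T_add, add_neg_cancel, T_zero])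

theorem T_smul (v : V F n) (a c : F) : T (a • v) c = T v (a ^ 2 * c) := by
  refine ext_act fun u => ?_
  simp only [act_T, om_smul_left, smul_smul]
  match_scalars <;> ring

theorem T_zero_vec (c : F) : T (0 : V F n) c = 1 := by
  refine ext_act fun u => ?_
  simp [act_T, act_one]

theorem T_conj (g : G F n) (v : V F n) (c : F) : g * T v c * g⁻¹ = T (act g v) c := by
  refine ext_act fun u => ?_
  rw [act_mul, act_mul, act_T, act_T, act_add, act_smul, act_act_inv]
  congr 3
  conv_rhs => rw [← act_act_inv g u, om_act]

theorem T_commute {v w : V F n} (h : om v w = 0) (c d : F) : Commute (T v c) (T w d) := by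
  refine ext_act fun u => ?_
  simp only [act_mul, act_T, om_add_right, om_smul_right, h, om_swap w v, neg_zero]
  match_scalars <;> ring

/-- Eichler element; meaningful when `om v x = 0` -/
def E (v x : V F n) : G F n := T (v + x) 1 * T v (-1) * T x (-1)

theorem act_E {v x : V F n} (h : om v x = 0) (u : V F n) :
    act (E v x) u = u + om x u • v + om v u • x := by
  have h' : om x v = 0 := by rw [om_swap, h, neg_zero]
  simp only [E, act_mul, act_T, om_add_right, om_add_left, om_smul_right, h, h', om_self]
  match_scalars <;> ring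

theorem E_conj (g : G F n) (v x : V F n) : g * E v x * g⁻¹ = E (act g v) (act g x) := by
  simp only [E, ← act_add, ← T_conj]; group

theorem E_comm {v x : V F n} (h : om v x = 0) : E v x = E x v := by
  have h' : om x v = 0 := by rw [om_swap, h, neg_zero]
  refine ext_act fun u => ?_
  rw [act_E h, act_E h']; abel

theorem E_zero (v : V F n) : E v 0 = 1 := by
  refine ext_act fun u => ?_
  rw [act_E (om_zero_right v), act_one]; simp [om_zero_left]

theorem E_smul {v x : V F n} (h : om v x = 0) (a : F) : E (a • v) x = E v (a • x) := by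
  have h1 : om (a • v) x = 0 := by rw [om_smul_left, h, mul_zero]
  have h2 : om v (a • x) = 0 := by rw [om_smul_right, h, mul_zero]
  refine ext_act fun u => ?_
  rw [act_E h1, act_E h2, om_smul_left, om_smul_left]
  match_scalars <;> ring

theorem E_mul {v x y : V F n} (hx : om v x = 0) (hy : om v y = 0) :
    E v x * E v y = E v (x + y) * T v (om x y) := by
  have hxy : om v (x + y) = 0 := by rw [om_add_right, hx, hy, add_zero]
  have hx' : om x v = 0 := by rw [om_swap, hx, neg_zero]
  have hy' : om y v = 0 := by rw [om_swap, hy, neg_zero]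
  refine ext_act fun u => ?_
  simp only [act_mul, act_T, act_E hx, act_E hy, act_E hxy, om_add_right, om_add_left, om_smul_right, hx, hy,
    om_self, hx', hy']
  match_scalars <;> ring

theorem T_comm_E {v x : V F n} (h : om v x = 0) (c : F) : Commute (T v c) (E v x) := by
  refine ext_act fun u => ?_
  simp only [act_mul, act_T, act_E h, om_add_right, om_smul_right, h, om_self, om_swap x v, neg_zero]
  match_scalars <;> ring

theorem E_add_left {v w x : V F n} (hv : om v x = 0) (hw : om w x = 0) :
    E (v + w) x = E v x * E w x * T x (-om v w) := by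
  have h : om (v + w) x = 0 := by rw [om_add_left, hv, hw, add_zero]
  have hv' : om x v = 0 := by rw [om_swap, hv, neg_zero]
  have hw' : om x w = 0 := by rw [om_swap, hw, neg_zero]
  rw [E_comm h, E_comm hv, E_comm hw, E_mul hv' hw', mul_assoc, T_add, add_neg_cancel, T_zero, mul_one]

/-- shifting the coordinates -/
def ι (x : V F m) : V F (m + 1) :=
  Sum.elim (Fin.cons 0 fun i => x (.inl i)) (Fin.cons 0 fun i => x (.inr i))

/-- dropping the first pair of coordinates -/
def tl (u : V F (m + 1)) : V F m := Sum.elim (fun i => u (.inl i.succ)) (fun i => u (.inr i.succ))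

@[simp] theorem ι_inl_zero (x : V F m) : ι x (.inl 0) = 0 := rfl
@[simp] theorem ι_inr_zero (x : V F m) : ι x (.inr 0) = 0 := rfl
@[simp] theorem ι_inl_succ (x : V F m) (i : Fin m) : ι x (.inl i.succ) = x (.inl i) := rfl
@[simp] theorem ι_inr_succ (x : V F m) (i : Fin m) : ι x (.inr i.succ) = x (.inr i) := rfl

theorem tl_ι (x : V F m) : tl (ι x) = x := by funext i; rcases i with i | i <;> simp [tl]

theorem ι_inj {x y : V F m} (h : ι x = ι y) : x = y := by rw [← tl_ι x, h, tl_ι]

theorem vext {u v : V F (m + 1)} (h1 : u (.inl 0) = v (.inl 0)) (h2 : u (.inr 0) = v (.inr 0)) (h3 : tl u = tl v) :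
    u = v := by
  funext i
  rcases i with i | i <;> induction i using Fin.cases with
  | zero => assumption
  | succ j => first | exact congrFun h3 (.inl j) | exact congrFun h3 (.inr j)

theorem ι_add (x y : V F m) : ι (x + y) = ι x + ι y := by
  refine vext ?_ ?_ ?_ <;> first | simp | (funext i; rcases i with i | i <;> simp [tl])

theorem ι_smul (a : F) (x : V F m) : ι (a • x) = a • ι x := by
  refine vext ?_ ?_ ?_ <;> first | simp | (funext i; rcases i with i | i <;> simp [tl])

theorem ι_zero : ι (0 : V F m) = 0 := by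
  refine vext ?_ ?_ ?_ <;> first | simp | (funext i; rcases i with i | i <;> simp [tl])

theorem ι_neg (x : V F m) : ι (-x) = -ι x := by
  rw [← neg_one_smul F x, ι_smul, neg_one_smul]

theorem ι_ee (i : Fin m) : ι (ee i : V F m) = ee i.succ := by
  refine vext ?_ ?_ ?_
  · simp [ee_apply_inl, (Fin.succ_ne_zero i).symm]
  · simp [ee_apply_inr]
  · funext j; rcases j with j | j <;> simp [tl, ee_apply_inl, ee_apply_inr]

theorem ι_ff (i : Fin m) : ι (ff i : V F m) = ff i.succ := by
  refine vext ?_ ?_ ?_
  · simp [ff_apply_inl]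
  · simp [ff_apply_inr, (Fin.succ_ne_zero i).symm]
  · funext j; rcases j with j | j <;> simp [tl, ff_apply_inl, ff_apply_inr]

theorem om_ι (x y : V F m) : om (ι x) (ι y) = om x y := by
  simp [om, Fin.sum_univ_succ]

@[simp] theorem om_ee0_ι (x : V F m) : om (ee 0) (ι x) = 0 := by simp [om_ee]
@[simp] theorem om_ff0_ι (x : V F m) : om (ff 0) (ι x) = 0 := by simp [om_ff]
@[simp] theorem om_ι_ee0 (x : V F m) : om (ι x) (ee 0) = 0 := by rw [om_swap]; simp
@[simp] theorem om_ι_ff0 (x : V F m) : om (ι x) (ff 0) = 0 := by rw [om_swap]; simp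
@[simp] theorem om_ee_ff (i : Fin n) : om (ee i) (ff i : V F n) = 1 := by simp [om_ee, ff_apply_inr]
@[simp] theorem om_ff_ee (i : Fin n) : om (ff i) (ee i : V F n) = -1 := by simp [om_ff, ee_apply_inl]

theorem decomp (u : V F (m + 1)) : u = u (.inl 0) • ee 0 + u (.inr 0) • ff 0 + ι (tl u) := by
  refine vext ?_ ?_ ?_
  · simp [ee_apply_inl, ff_apply_inl]
  · simp [ee_apply_inr, ff_apply_inr]
  · funext j
    rcases j with j | j <;> simp [tl, ee_apply_inl, ee_apply_inr, ff_apply_inl, ff_apply_inr, Fin.succ_ne_zero]

theorem ext_basis {g h : G F (m + 1)} (he : act g (ee 0) = act h (ee 0)) (hf : act g (ff 0) = act h (ff 0))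
    (hι : ∀ x, act g (ι x) = act h (ι x)) : g = h := by
  refine ext_act fun u => ?_
  rw [decomp u]
  simp only [act_add, act_smul, he, hf, hι]

theorem tl_add (u v : V F (m + 1)) : tl (u + v) = tl u + tl v := by
  funext i; rcases i with i | i <;> simp [tl]

theorem tl_smul (a : F) (u : V F (m + 1)) : tl (a • u) = a • tl u := by
  funext i; rcases i with i | i <;> simp [tl]

/-- the embedding as a linear map -/
def embLin (g : G F m) : V F (m + 1) →ₗ[F] V F (m + 1) where
  toFun u := u (.inl 0) • ee 0 + u (.inr 0) • ff 0 + ι (act g (tl u))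
  map_add' u v := by
    simp only [Pi.add_apply, tl_add, act_add, ι_add]
    match_scalars <;> ring
  map_smul' a u := by
    simp only [Pi.smul_apply, smul_eq_mul, tl_smul, act_smul, ι_smul, RingHom.id_apply]
    match_scalars <;> ring

theorem embLin_symp (g : G F m) (u w : V F (m + 1)) : om (embLin g u) (embLin g w) = om u w := by
  conv_rhs => rw [decomp u, decomp w]
  simp only [embLin, LinearMap.coe_mk, AddHom.coe_mk, om_add_left, om_add_right, om_smul_left, om_smul_right,
    om_ee0_ι, om_ff0_ι, om_ι_ee0, om_ι_ff0, om_ι, om_act, om_self]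

/-- the embedding fixing the first hyperbolic pair -/
def embFun (g : G F m) : G F (m + 1) := toSp (embLin g) (embLin_symp g)

theorem act_embFun (g : G F m) (u : V F (m + 1)) :
    act (embFun g) u = u (.inl 0) • ee 0 + u (.inr 0) • ff 0 + ι (act g (tl u)) := act_toSp _ _ u

theorem act_embFun_ee (g : G F m) : act (embFun g) (ee 0) = ee 0 := by
  rw [act_embFun]
  have : tl (ee 0 : V F (m + 1)) = 0 := by
    funext j; rcases j with j | j <;> simp [tl, ee_apply_inl, ee_apply_inr, Fin.succ_ne_zero]
  simp [this, act_zero, ι_zero, ee_apply_inl, ee_apply_inr]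

theorem act_embFun_ff (g : G F m) : act (embFun g) (ff 0) = ff 0 := by
  rw [act_embFun]
  have : tl (ff 0 : V F (m + 1)) = 0 := by
    funext j; rcases j with j | j <;> simp [tl, ff_apply_inl, ff_apply_inr, Fin.succ_ne_zero]
  simp [this, act_zero, ι_zero, ff_apply_inl, ff_apply_inr]

theorem act_embFun_ι (g : G F m) (x : V F m) : act (embFun g) (ι x) = ι (act g x) := by
  rw [act_embFun, tl_ι]; simp

/-- the embedding -/
def emb : G F m →* G F (m + 1) where
  toFun := embFun
  map_one' := ext_basis (by rw [act_embFun_ee, act_one]) (by rw [act_embFun_ff, act_one])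
    (fun x => by rw [act_embFun_ι, act_one, act_one])
  map_mul' g h := ext_basis (by simp only [act_mul, act_embFun_ee]) (by simp only [act_mul, act_embFun_ff])
    (fun x => by simp only [act_mul, act_embFun_ι])

@[simp] theorem emb_ee (g : G F m) : act (emb g) (ee 0) = ee 0 := act_embFun_ee g
@[simp] theorem emb_ff (g : G F m) : act (emb g) (ff 0) = ff 0 := act_embFun_ff g
@[simp] theorem emb_ι (g : G F m) (x : V F m) : act (emb g) (ι x) = ι (act g x) := act_embFun_ι g x

theorem emb_inj {g h : G F m} (e : emb g = emb h) : g = h := by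
  refine ext_act fun x => ι_inj ?_
  rw [← emb_ι, e, emb_ι]

theorem emb_T (v : V F m) (c : F) : emb (T v c) = T (ι v) c := by
  refine ext_basis ?_ ?_ fun x => ?_
  · simp [act_T]
  · simp [act_T]
  · simp [act_T, om_ι, ι_add, ι_smul]

theorem emb_E (v x : V F m) : emb (E v x) = E (ι v) (ι x) := by
  simp only [E, map_mul, emb_T, ι_add]

/-- an element fixing the first hyperbolic pair comes from one rank less -/
theorem exists_emb {g : G F (m + 1)} (he : act g (ee 0) = ee 0) (hf : act g (ff 0) = ff 0) :
    ∃ k, g = emb k := by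
  have hW : ∀ x, act g (ι x) = ι (tl (act g (ι x))) := fun x => by
    have e1 := om_act g (ee 0) (ι x)
    have e2 := om_act g (ff 0) (ι x)
    rw [he, om_ee, om_ee0_ι] at e1
    rw [hf, om_ff, om_ff0_ι, neg_eq_zero] at e2
    exact vext (by simpa using e2) (by simpa using e1) (tl_ι _).symm
  let f : V F m →ₗ[F] V F m :=
    { toFun := fun x => tl (act g (ι x))
      map_add' := fun x y => by rw [ι_add, act_add, tl_add]
      map_smul' := fun a x => by rw [ι_smul, act_smul, tl_smul, RingHom.id_apply] }
  have hf' : ∀ x y, om (f x) (f y) = om x y := fun x y => by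
    show om (tl (act g (ι x))) (tl (act g (ι y))) = _
    rw [← om_ι, ← hW, ← hW, om_act, om_ι]
  refine ⟨toSp f hf', ext_basis (by rw [emb_ee, he]) (by rw [emb_ff, hf]) fun x => ?_⟩
  rw [emb_ι, act_toSp]
  exact hW x

end Cfsg.Agent.Lib.SlimSp
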