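import Cfsg.Agent.Lib.SlimSp.Elem

/-!
# Generation, transitivity and the stabilizer of a vector
-/

set_option autoImplicit false

namespace Cfsg.Agent.Lib.SlimSp

open Matrix

universe u

variable {F : Type u} [Field F] {n m : ℕ}

/-- the Weyl element of a hyperbolic pair -/
def wv (v w : V F n) (a : F) : G F n := T v a * T w a⁻¹ * T v a

/-- the torus element of a hyperbolic pair -/
def hh (v w : V F n) (a : F) : G F n := wv v w a * (wv v w 1)⁻¹

theorem wv_left {v w : V F n} (h : om v w = 1) {a : F} (ha : a ≠ 0) : act (wv v w a) v = -(a⁻¹ • w) := by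
  have h' : om w v = -1 := by rw [om_swap, h]
  simp only [wv, act_mul, act_T, om_add_right, om_smul_right, om_self, h, h']
  match_scalars <;> field_simp <;> ring

theorem wv_right {v w : V F n} (h : om v w = 1) {a : F} (ha : a ≠ 0) : act (wv v w a) w = a • v := by
  have h' : om w v = -1 := by rw [om_swap, h]
  simp only [wv, act_mul, act_T, om_add_right, om_smul_right, om_self, h, h']
  match_scalars <;> field_simp <;> ring

theorem wv_perp {v w u : V F n} (hv : om v u = 0) (hw : om w u = 0) (a : F) : act (wv v w a) u = u := by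
  simp [wv, act_mul, act_T, hv, hw]

theorem hh_left {v w : V F n} (h : om v w = 1) {a : F} (ha : a ≠ 0) : act (hh v w a) v = a • v := by
  have : act (wv v w 1)⁻¹ v = w := act_inj (wv v w 1) (by rw [act_act_inv, wv_right h one_ne_zero, one_smul])
  rw [hh, act_mul, this, wv_right h ha]

theorem hh_right {v w : V F n} (h : om v w = 1) {a : F} (ha : a ≠ 0) : act (hh v w a) w = a⁻¹ • w := by
  have : act (wv v w 1)⁻¹ w = -v := act_inj (wv v w 1) (by
    rw [act_act_inv, act_neg, wv_left h one_ne_zero, inv_one, one_smul, neg_neg])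
  rw [hh, act_mul, this, act_neg, wv_left h ha, neg_neg]

theorem hh_perp {v w u : V F n} (hv : om v u = 0) (hw : om w u = 0) (a : F) : act (hh v w a) u = u := by
  rw [hh, act_mul]
  have : act (wv v w 1)⁻¹ u = u := act_inj (wv v w 1) (by rw [act_act_inv, wv_perp hv hw])
  rw [this, wv_perp hv hw]

theorem wv_mem {K : Subgroup (G F n)} {v w : V F n} (hv : ∀ c, T v c ∈ K) (hw : ∀ c, T w c ∈ K) (a : F) :
    wv v w a ∈ K := mul_mem (mul_mem (hv _) (hw _)) (hv _)

theorem hh_mem {K : Subgroup (G F n)} {v w : V F n} (hv : ∀ c, T v c ∈ K) (hw : ∀ c, T w c ∈ K) (a : F) :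
    hh v w a ∈ K := mul_mem (wv_mem hv hw a) (inv_mem (wv_mem hv hw 1))

/-- the group of a hyperbolic pair is transitive on its plane -/
theorem exists_plane {K : Subgroup (G F n)} {v w : V F n} (h : om v w = 1) (hv : ∀ c, T v c ∈ K)
    (hw : ∀ c, T w c ∈ K) (α β : F) (h0 : α ≠ 0 ∨ β ≠ 0) : ∃ g ∈ K, act g v = α • v + β • w := by
  by_cases hb : β = 0
  · subst hb
    have ha : α ≠ 0 := h0.resolve_right (by simp)
    exact ⟨hh v w α, hh_mem hv hw α, by rw [hh_left h ha, zero_smul, add_zero]⟩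
  · refine ⟨T v ((α - 1) / β) * T w (-β), mul_mem (hv _) (hw _), ?_⟩
    have h' : om w v = -1 := by rw [om_swap, h]
    simp only [act_mul, act_T, om_add_right, om_smul_right, om_self, h, h']
    match_scalars <;> field_simp <;> ring

/-- the stabilizer of the first basis vector -/
theorem fix_decomp {g : G F (m + 1)} (he : act g (ee 0) = ee 0) :
    ∃ (x : V F m) (z : F) (k : G F m), g = E (ee 0) (ι x) * T (ee 0) z * emb k := by
  set u := act g (ff 0) with hu
  have h1 : u (.inr 0) = 1 := by rw [← om_ee (0 : Fin (m + 1)) u, ← he, hu, om_act, om_ee_ff]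
  let q : G F (m + 1) := E (ee 0) (ι (tl u)) * T (ee 0) (u (.inl 0))
  have hqe : act q (ee 0) = ee 0 := by
    simp [q, act_mul, act_T, act_E, om_self]
  have hqf : act q (ff 0) = u := by
    conv_rhs => rw [decomp u, h1]
    simp only [q, act_mul, act_T, act_E (om_ee0_ι _), om_ee_ff, om_add_right, om_smul_right, om_self, om_ι_ee0,
      om_ι_ff0]
    match_scalars <;> ring
  obtain ⟨k, hk⟩ := exists_emb (g := q⁻¹ * g)
    (by rw [act_mul, he]; exact act_inj q (by rw [act_act_inv, hqe]))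
    (by rw [act_mul]; exact act_inj q (by rw [act_act_inv, hqf]))
  exact ⟨tl u, u (.inl 0), k, by show g = q * emb k; rw [← hk, mul_inv_cancel_left]⟩

/-- the generators -/
def gset (F : Type u) [Field F] (n : ℕ) : Set (G F n) :=
  {g | (∃ j c, g = T (ee j) c) ∨ (∃ j c, g = T (ff j) c) ∨
    ∃ (a b : Fin n) (c : F), (a : ℕ) + 1 = b ∧ g = E (ee a) (c • ee b)}

theorem tl_ee0 : tl (ee 0 : V F (m + 1)) = 0 := by
  funext j; rcases j with j | j <;> simp [tl, ee_apply_inl, ee_apply_inr, Fin.succ_ne_zero]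

/-- generation and transitivity on nonzero vectors -/
theorem gen_trans : ∀ n, Subgroup.closure (gset F n) = ⊤ ∧
    ∀ v w : V F n, v ≠ 0 → w ≠ 0 → ∃ g, act g v = w := by
  intro n
  induction n with
  | zero =>
    refine ⟨eq_top_iff.2 fun g _ => ?_, fun v _ hv => absurd (Subsingleton.elim v 0) hv⟩
    rw [show g = 1 from ext_act fun u => Subsingleton.elim _ _]
    exact one_mem _
  | succ m ih =>
    obtain ⟨ihg, iht⟩ := ih
    set K := Subgroup.closure (gset F (m + 1)) with hK
    have hTe : ∀ j c, T (ee j : V F (m + 1)) c ∈ K := fun j c => Subgroup.subset_closure (Or.inl ⟨j, c, rfl⟩)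
    have hTf : ∀ j c, T (ff j : V F (m + 1)) c ∈ K := fun j c =>
      Subgroup.subset_closure (Or.inr (Or.inl ⟨j, c, rfl⟩))
    have hemb : ∀ k, emb k ∈ K := fun k => by
      have : Subgroup.closure (gset F m) ≤ K.comap emb := (Subgroup.closure_le _).2 fun g hg => by
        rcases hg with ⟨j, c, rfl⟩ | ⟨j, c, rfl⟩ | ⟨a, b, c, hab, rfl⟩
        · simpa [emb_T, ι_ee] using hTe j.succ c
        · simpa [emb_T, ι_ff] using hTf j.succ c
        · refine Subgroup.subset_closure (Or.inr (Or.inr ⟨a.succ, b.succ, c, by simp [hab], ?_⟩))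
          rw [emb_E, ι_smul, ι_ee, ι_ee]
      exact this (ihg.symm ▸ Subgroup.mem_top k)
    have hE : ∀ x : V F m, E (ee 0) (ι x) ∈ K := by
      intro x
      by_cases hx : x = 0
      · rw [hx, ι_zero, E_zero]; exact one_mem _
      cases m with
      | zero => exact absurd (Subsingleton.elim x 0) hx
      | succ p =>
        obtain ⟨k, hk⟩ := iht (ee 0) x (ee_ne_zero 0) hx
        have : E (ee 0) (ι x) = emb k * E (ee 0) (ι (ee 0)) * (emb k)⁻¹ := by
          rw [E_conj, emb_ee, emb_ι, hk]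
        rw [this]
        refine mul_mem (mul_mem (hemb k) (Subgroup.subset_closure (Or.inr (Or.inr ⟨0, (0 : Fin (p + 1)).succ, 1,
          by simp, by rw [one_smul, ι_ee]⟩)))) (inv_mem (hemb k))
    have r1 : ∀ v : V F (m + 1), v (.inr 0) ≠ 0 → ∃ g ∈ K, act g (ee 0) = v := by
      intro v hb
      obtain ⟨g0, hg0, e0⟩ := exists_plane (om_ee_ff (0 : Fin (m + 1))) (hTe 0) (hTf 0) 0 (v (.inr 0)) (Or.inr hb)
      refine ⟨E (ee 0) (ι ((v (.inr 0))⁻¹ • tl v)) * T (ee 0) (v (.inl 0) / v (.inr 0)) * g0,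
        mul_mem (mul_mem (hE _) (hTe _ _)) hg0, ?_⟩
      rw [act_mul, e0, zero_smul, zero_add, act_mul]
      conv_rhs => rw [decomp v]
      simp only [act_T, act_E (om_ee0_ι _), om_ee_ff, om_add_right, om_smul_right, om_self, om_ι_ee0, om_ι_ff0]
      rw [ι_smul]
      match_scalars <;> field_simp <;> ring
    have r2 : ∀ v : V F (m + 1), v (.inl 0) ≠ 0 → ∃ g ∈ K, act g (ee 0) = v := by
      intro v ha
      have hw := wv_mem (hTe 0) (hTf 0) 1
      obtain ⟨g, hg, e⟩ := r1 (act (wv (ee 0) (ff 0) 1) v) (by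
        have e := om_act (wv (ee 0) (ff 0) 1) (ff 0) v
        rw [wv_right (om_ee_ff _) one_ne_zero, one_smul, om_ee, om_ff] at e
        rw [e]; exact neg_ne_zero.2 ha)
      exact ⟨(wv (ee 0) (ff 0) 1)⁻¹ * g, mul_mem (inv_mem hw) hg, by rw [act_mul, e, act_inv_act]⟩
    have reach : ∀ v : V F (m + 1), v ≠ 0 → ∃ g ∈ K, act g (ee 0) = v := by
      intro v hv
      by_cases hb : v (.inr 0) ≠ 0
      · exact r1 v hb
      by_cases ha : v (.inl 0) ≠ 0
      · exact r2 v ha
      push_neg at ha hb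
      have hd : v = ι (tl v) := by conv_lhs => rw [decomp v, ha, hb, zero_smul, zero_smul, zero_add, zero_add]
      have hy : tl v ≠ 0 := fun h => hv (by rw [hd, h, ι_zero])
      obtain ⟨s, hs⟩ := exists_om_ne _ hy
      obtain ⟨g, hg, e⟩ := r2 (act (E (ee 0) (ι s)) v) (by
        rw [hd, act_E (om_ee0_ι _), om_ι, om_ee0_ι]
        simpa [ee_apply_inl, om_swap s] using hs)
      exact ⟨(E (ee 0) (ι s))⁻¹ * g, mul_mem (inv_mem (hE s)) hg, by rw [act_mul, e, act_inv_act]⟩
    refine ⟨eq_top_iff.2 fun g _ => ?_, fun v w hv hw => ?_⟩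
    · obtain ⟨k, hk, e⟩ := reach (act g (ee 0)) fun h => ee_ne_zero 0 (act_inj g (h.trans (act_zero g).symm))
      obtain ⟨x, z, j, hj⟩ := fix_decomp (g := k⁻¹ * g) (by rw [act_mul, ← e, act_inv_act])
      have : k * (k⁻¹ * g) ∈ K := mul_mem hk (hj ▸ mul_mem (mul_mem (hE x) (hTe 0 z)) (hemb j))
      simpa using this
    · obtain ⟨a, -, ea⟩ := reach v hv
      obtain ⟨b, -, eb⟩ := reach w hw
      exact ⟨b * a⁻¹, by rw [act_mul, ← ea, act_inv_act, eb]⟩

theorem gen (n : ℕ) : Subgroup.closure (gset F n) = ⊤ := (gen_trans n).1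

theorem trans_vec {v w : V F n} (hv : v ≠ 0) (hw : w ≠ 0) : ∃ g, act g v = w := (gen_trans n).2 v w hv hw

theorem fix_ι {g : G F (m + 1)} (h : ∀ j : Fin m, act g (ee j.succ) = ee j.succ ∧ act g (ff j.succ) = ff j.succ)
    (x : V F m) : act g (ι x) = ι x := by
  have e : ∀ y : V F m, y = ∑ i, (y (.inl i) • ee i + y (.inr i) • ff i) := fun y => by
    funext i
    rcases i with i | i <;> simp [Finset.sum_apply, ee_apply_inl, ee_apply_inr, ff_apply_inl, ff_apply_inr]
  let f : V F m →+ V F (m + 1) :=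
    { toFun := fun y => act g (ι y) - ι y, map_zero' := by simp [ι_zero, act_zero],
      map_add' := fun a b => by simp only [ι_add, act_add]; abel }
  have hf : ∀ y, f y = 0 := fun y => by
    rw [e y, map_sum]
    refine Finset.sum_eq_zero fun i _ => ?_
    rw [map_add]
    show (act g (ι (_ • ee i)) - ι (_ • ee i)) + (act g (ι (_ • ff i)) - ι (_ • ff i)) = 0
    simp only [ι_smul, ι_ee, ι_ff, act_smul, (h i).1, (h i).2, sub_self, add_zero]
  exact sub_eq_zero.1 (hf x)

theorem stab_ι {x : V F m} {z : F} {k : G F m} (y : V F m) :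
    act (E (ee 0) (ι x) * T (ee 0) z * emb k) (ι y) = ι (act k y) + om x (act k y) • ee 0 := by
  simp only [act_mul, act_T, emb_ι, om_ee0_ι, mul_zero, zero_smul, add_zero, act_E (om_ee0_ι _), om_ι]

/-- the pointwise stabilizer of the complement of the first pair -/
def fixι (F : Type u) [Field F] (m : ℕ) : Subgroup (G F (m + 1)) where
  carrier := {g | ∀ y : V F m, act g (ι y) = ι y}
  one_mem' := fun _ => act_one _
  mul_mem' := fun {a b} ha hb y => by rw [act_mul, hb y, ha y]
  inv_mem' := fun {a} ha y => act_inj a (by rw [act_act_inv, ha y])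

theorem T_ee_fix (c : F) : T (ee 0 : V F (m + 1)) c ∈ fixι F m := fun y => by simp [act_T]

theorem T_ff_fix (c : F) : T (ff 0 : V F (m + 1)) c ∈ fixι F m := fun y => by simp [act_T]

/-- the elements fixing the complement of the first pair -/
theorem plane_mem {K : Subgroup (G F (m + 1))} (hv : ∀ c, T (ee 0) c ∈ K) (hw : ∀ c, T (ff 0) c ∈ K)
    {g : G F (m + 1)} (h : ∀ j : Fin m, act g (ee j.succ) = ee j.succ ∧ act g (ff j.succ) = ff j.succ) : g ∈ K := by
  have hfix := fix_ι h
  set u := act g (ee 0) with hu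
  have ht : tl u = 0 := by
    have key : ∀ y, om (tl u) y = 0 := fun y => by
      have := om_act g (ee 0) (ι y)
      rw [hfix, om_ee0_ι, ← hu, decomp u] at this
      simpa [om_add_left, om_smul_left, om_ι] using this
    by_contra hne
    obtain ⟨y, hy⟩ := exists_om_ne _ hne
    exact hy (key y)
  obtain ⟨k, hk, e⟩ := exists_plane (K := K ⊓ fixι F m) (om_ee_ff (0 : Fin (m + 1)))
    (fun c => ⟨hv c, T_ee_fix c⟩) (fun c => ⟨hw c, T_ff_fix c⟩) (u (.inl 0)) (u (.inr 0)) (by
    by_contra hc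
    push_neg at hc
    refine ee_ne_zero (0 : Fin (m + 1)) (act_inj g ?_)
    rw [← hu, decomp u, ht, ι_zero, hc.1, hc.2, act_zero]; simp)
  have ek : u = act k (ee 0) := by rw [e]; conv_lhs => rw [decomp u, ht, ι_zero, add_zero]
  obtain ⟨x, z, j, hj⟩ := fix_decomp (g := k⁻¹ * g) (by rw [act_mul, ← hu, ek, act_inv_act])
  have hq : ∀ y, act j y = y ∧ om x y = 0 := fun y => by
    have h1 : act (k⁻¹ * g) (ι y) = ι y := by rw [act_mul, hfix, (inv_mem hk.2 : k⁻¹ ∈ fixι F m) y]
    rw [hj, stab_ι] at h1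
    have h2 : act j y = y := by simpa [tl_add, tl_smul, tl_ee0, tl_ι] using congrArg tl h1
    refine ⟨h2, ?_⟩
    simpa [h2, ee_apply_inl] using congrFun h1 (.inl 0)
  have hj1 : j = 1 := ext_act fun y => by rw [(hq y).1, act_one]
  have hx : x = 0 := by
    by_contra hne
    obtain ⟨y, hy⟩ := exists_om_ne _ hne
    exact hy (hq y).2
  rw [hj1, hx, ι_zero, E_zero, map_one, one_mul, mul_one] at hj
  have : k * (k⁻¹ * g) ∈ K := mul_mem hk.1 (hj ▸ hv z)
  simpa using this

/-- the elements of the first slim subgroup -/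
theorem slim_form {p : ℕ} {g : G F (p + 2)} (he : ∀ j, act g (ee j) = ee j)
    (hf : ∀ j : Fin p, act g (ff j.succ.succ) = ff j.succ.succ) :
    ∃ c z z' : F, g = E (ee 0) (c • ι (ee 0)) * T (ee 0) z * T (ι (ee 0)) z' := by
  obtain ⟨x, z, k, hk⟩ := fix_decomp (he 0)
  have key : ∀ y, act g (ι y) = ι y → act k y = y ∧ om x y = 0 := fun y h1 => by
    rw [hk, stab_ι] at h1
    have h2 : act k y = y := by simpa [tl_add, tl_smul, tl_ee0, tl_ι] using congrArg tl h1
    refine ⟨h2, ?_⟩
    simpa [h2, ee_apply_inl] using congrFun h1 (.inl 0)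
  have ke : ∀ j, act k (ee j) = ee j ∧ om x (ee j) = 0 := fun j => key _ (by rw [ι_ee]; exact he _)
  have kf : ∀ j : Fin p, act k (ff j.succ) = ff j.succ ∧ om x (ff j.succ) = 0 := fun j =>
    key _ (by rw [ι_ff]; exact hf j)
  have hx : x = x (.inl 0) • ee 0 := by
    funext i
    rcases i with i | i
    · induction i using Fin.cases with
      | zero => simp [ee_apply_inl]
      | succ j =>
        have := (kf j).2
        rw [om_swap, om_ff, neg_neg] at this
        simp [ee_apply_inl, this]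
    · have := (ke i).2
      rw [om_swap, om_ee, neg_eq_zero] at this
      simp [ee_apply_inr, this]
  obtain ⟨x', z', k', hk'⟩ := fix_decomp (ke 0).1
  have hq : ∀ y, act k' y = y ∧ om x' y = 0 := fun y => by
    have h1 : act k (ι y) = ι y := fix_ι (fun j => ⟨(ke _).1, (kf j).1⟩) y
    rw [hk', stab_ι] at h1
    have h2 : act k' y = y := by simpa [tl_add, tl_smul, tl_ee0, tl_ι] using congrArg tl h1
    refine ⟨h2, ?_⟩
    simpa [h2, ee_apply_inl] using congrFun h1 (.inl 0)
  have hk1 : k' = 1 := ext_act fun y => by rw [(hq y).1, act_one]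
  have hx1 : x' = 0 := by
    by_contra hne
    obtain ⟨y, hy⟩ := exists_om_ne _ hne
    exact hy (hq y).2
  rw [hk1, hx1, ι_zero, E_zero, map_one, one_mul, mul_one] at hk'
  refine ⟨x (.inl 0), z, z', ?_⟩
  rw [hk, hk', emb_T]
  congr 3
  conv_lhs => rw [hx, ι_smul]

end Cfsg.Agent.Lib.SlimSp
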