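import Cfsg.Agent.Lib.SlimSp.Cosets

/-!
# The slim amalgam of the symplectic group
-/

set_option autoImplicit false

namespace Cfsg.Agent.Lib.SlimSp

open Matrix

universe u v

variable {F : Type u} [Field F] {n m : ℕ} {H : Type v} [Group H]

/-- the rank one member -/
def Sf (j : Fin n) : Subgroup (G F n) :=
  Subgroup.closure {A | ∀ k : Fin n, k ≠ j → act A (ee k) = ee k ∧ act A (ff k) = ff k}

/-- the abelian member -/
def Mf (i : Fin n) : Subgroup (G F n) :=
  Subgroup.closure {A | (∀ k : Fin n, act A (ee k) = ee k) ∧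
    ∀ k : Fin n, (k : ℕ) ≠ i → (k : ℕ) ≠ (i : ℕ) + 1 → act A (ff k) = ff k}

theorem inv_fix {g : G F n} {u : V F n} (h : act g u = u) : act g⁻¹ u = u :=
  act_inj g (by rw [act_act_inv, h])

theorem of_mem_Sf {j : Fin n} {g : G F n} (h : g ∈ Sf j) :
    ∀ k : Fin n, k ≠ j → act g (ee k) = ee k ∧ act g (ff k) = ff k := by
  induction h using Subgroup.closure_induction with
  | mem x hx => exact hx
  | one => exact fun k _ => ⟨act_one _, act_one _⟩
  | mul a b _ _ ha hb => exact fun k hk =>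
      ⟨by rw [act_mul, (hb k hk).1, (ha k hk).1], by rw [act_mul, (hb k hk).2, (ha k hk).2]⟩
  | inv a _ ha => exact fun k hk => ⟨inv_fix (ha k hk).1, inv_fix (ha k hk).2⟩

theorem of_mem_Mf {i : Fin n} {g : G F n} (h : g ∈ Mf i) : (∀ k : Fin n, act g (ee k) = ee k) ∧
    ∀ k : Fin n, (k : ℕ) ≠ i → (k : ℕ) ≠ (i : ℕ) + 1 → act g (ff k) = ff k := by
  induction h using Subgroup.closure_induction with
  | mem x hx => exact hx
  | one => exact ⟨fun k => act_one _, fun k _ _ => act_one _⟩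
  | mul a b _ _ ha hb => exact ⟨fun k => by rw [act_mul, hb.1 k, ha.1 k],
      fun k h1 h2 => by rw [act_mul, hb.2 k h1 h2, ha.2 k h1 h2]⟩
  | inv a _ ha => exact ⟨fun k => inv_fix (ha.1 k), fun k h1 h2 => inv_fix (ha.2 k h1 h2)⟩

theorem om_ee_ee (i j : Fin n) : om (ee i) (ee j : V F n) = 0 := by rw [om_ee, ee_apply_inr]

theorem om_ff_ff (i j : Fin n) : om (ff i) (ff j : V F n) = 0 := by rw [om_ff, ff_apply_inl, neg_zero]

theorem om_ee_ff_ne {i j : Fin n} (h : i ≠ j) : om (ee i) (ff j : V F n) = 0 := by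
  rw [om_ee, ff_apply_inr, if_neg h]

theorem om_ff_ee_ne {i j : Fin n} (h : i ≠ j) : om (ff i) (ee j : V F n) = 0 := by
  rw [om_ff, ee_apply_inl, if_neg h, neg_zero]

theorem T_ee_Sf (j : Fin n) (c : F) : T (ee j) c ∈ Sf j :=
  Subgroup.subset_closure fun k hk => ⟨by simp [act_T, om_ee_ee], by simp [act_T, om_ee_ff_ne hk.symm]⟩

theorem T_ff_Sf (j : Fin n) (c : F) : T (ff j) c ∈ Sf j :=
  Subgroup.subset_closure fun k hk => ⟨by simp [act_T, om_ff_ee_ne hk.symm], by simp [act_T, om_ff_ff]⟩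

theorem T_ee_Mf {i j : Fin n} (h : (j : ℕ) = i ∨ (j : ℕ) = (i : ℕ) + 1) (c : F) : T (ee j) c ∈ Mf i := by
  refine Subgroup.subset_closure ⟨fun k => by simp [act_T, om_ee_ee], fun k h1 h2 => ?_⟩
  have : j ≠ k := by rintro rfl; omega
  simp [act_T, om_ee_ff_ne this]

theorem E_Mf {i j : Fin n} (h : (j : ℕ) = (i : ℕ) + 1) (c : F) :
    E (ee i : V F n) (c • ee j) ∈ Mf i := by
  have ho : om (ee i) (c • ee j : V F n) = 0 := by rw [om_smul_right, om_ee_ee, mul_zero]
  refine Subgroup.subset_closure ⟨fun k => by simp [act_E ho, om_ee_ee, om_smul_left], fun k h1 h2 => ?_⟩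
  have hi : i ≠ k := by rintro rfl; omega
  have hj : j ≠ k := by rintro rfl; omega
  simp [act_E ho, om_ee_ff_ne hi, om_ee_ff_ne hj, om_smul_left]

theorem emb_Sf {j : Fin m} {g : G F m} (h : g ∈ Sf j) : emb g ∈ Sf j.succ := by
  refine Subgroup.subset_closure fun k hk => ?_
  induction k using Fin.cases with
  | zero => exact ⟨emb_ee g, emb_ff g⟩
  | succ l =>
    obtain ⟨h1, h2⟩ := of_mem_Sf h l (fun e => hk (by rw [e]))
    rw [← ι_ee, ← ι_ff, emb_ι, emb_ι, h1, h2]
    exact ⟨rfl, rfl⟩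

theorem emb_Mf {i : Fin m} {g : G F m} (h : g ∈ Mf i) : emb g ∈ Mf i.succ := by
  obtain ⟨h1, h2⟩ := of_mem_Mf h
  refine Subgroup.subset_closure ⟨fun k => ?_, fun k a b => ?_⟩
  · induction k using Fin.cases with
    | zero => exact emb_ee g
    | succ l => rw [← ι_ee, emb_ι, h1 l]
  · induction k using Fin.cases with
    | zero => exact emb_ff g
    | succ l =>
      simp only [Fin.val_succ, ne_eq] at a b
      rw [← ι_ff, emb_ι, h2 l (by omega) (by omega)]

/-- a function which is multiplicative on a subgroup -/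
def HomOn (K : Subgroup (G F n)) (f : G F n → H) : Prop := ∀ a ∈ K, ∀ b ∈ K, f (a * b) = f a * f b

/-- two functions extend to a function multiplicative on the join -/
def Compat (A B : Subgroup (G F n)) (f g : G F n → H) : Prop :=
  ∃ ψ : G F n → H, HomOn (A ⊔ B) ψ ∧ (∀ a ∈ A, ψ a = f a) ∧ ∀ b ∈ B, ψ b = g b

theorem Compat.commute {A B : Subgroup (G F n)} {f g : G F n → H} (h : Compat A B f g) {a b : G F n} (ha : a ∈ A)
    (hb : b ∈ B) (hab : Commute a b) : Commute (f a) (g b) := by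
  obtain ⟨ψ, hψ, h1, h2⟩ := h
  show f a * g b = g b * f a
  rw [← h1 a ha, ← h2 b hb, ← hψ a (Subgroup.mem_sup_left ha) b (Subgroup.mem_sup_right hb),
    ← hψ b (Subgroup.mem_sup_right hb) a (Subgroup.mem_sup_left ha), hab.eq]

theorem Compat.pull {A B : Subgroup (G F (m + 1))} {f g : G F (m + 1) → H} (h : Compat A B f g)
    {A' B' : Subgroup (G F m)} (hA : ∀ a ∈ A', emb a ∈ A) (hB : ∀ b ∈ B', emb b ∈ B) :
    Compat A' B' (fun a => f (emb a)) fun b => g (emb b) := by
  obtain ⟨ψ, hψ, h1, h2⟩ := h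
  have hle : A' ⊔ B' ≤ (A ⊔ B).comap emb :=
    sup_le (fun a ha => Subgroup.mem_sup_left (hA a ha)) (fun b hb => Subgroup.mem_sup_right (hB b hb))
  exact ⟨fun a => ψ (emb a), fun a ha b hb => by
      show ψ (emb (a * b)) = _
      rw [map_mul, hψ _ (hle ha) _ (hle hb)],
    fun a ha => h1 _ (hA a ha), fun b hb => h2 _ (hB b hb)⟩

theorem comm_T_of_fix {g : G F n} {v : V F n} (h : act g v = v) (c : F) : Commute g (T v c) := by
  show g * _ = _ * g
  rw [← mul_inv_eq_iff_eq_mul, T_conj, h]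

theorem comm_E_of_fix {g : G F n} {v x : V F n} (h : act g v = v) (h' : act g x = x) : Commute g (E v x) := by
  show g * _ = _ * g
  rw [← mul_inv_eq_iff_eq_mul, E_conj, h, h']

theorem Compat.diag {A B : Subgroup (G F n)} {f g : G F n → H} (h : Compat A B f g) : HomOn A f ∧ HomOn B g := by
  obtain ⟨ψ, hψ, h1, h2⟩ := h
  exact ⟨fun a ha b hb => by rw [← h1 a ha, ← h1 b hb, ← h1 _ (mul_mem ha hb),
      hψ a (Subgroup.mem_sup_left ha) b (Subgroup.mem_sup_left hb)],
    fun a ha b hb => by rw [← h2 a ha, ← h2 b hb, ← h2 _ (mul_mem ha hb),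
      hψ a (Subgroup.mem_sup_right ha) b (Subgroup.mem_sup_right hb)]⟩

/-- existence -/
theorem exists_hom (hF : ∃ a : F, a ≠ 0 ∧ a ≠ 1) :
    ∀ (p : ℕ) (σ μ : Fin (p + 1) → G F (p + 1) → H), (∀ j, HomOn (Sf j) (σ j)) →
      (∀ j l, j ≠ l → Compat (Sf j) (Sf l) (σ j) (σ l)) →
      (∀ i i' : Fin (p + 1), i ≠ i' → (i : ℕ) + 1 < p + 1 → (i' : ℕ) + 1 < p + 1 → Compat (Mf i) (Mf i') (μ i) (μ i')) →
      (∀ i j : Fin (p + 1), (i : ℕ) + 1 < p + 1 → Compat (Mf i) (Sf j) (μ i) (σ j)) →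
      ∃ Φ : G F (p + 1) →* H, (∀ j, ∀ g ∈ Sf j, Φ g = σ j g) ∧
        ∀ i : Fin (p + 1), (i : ℕ) + 1 < p + 1 → ∀ g ∈ Mf i, Φ g = μ i g := by
  intro p
  induction p with
  | zero =>
    intro σ μ hσ _ _ _
    have htop : ∀ g : G F 1, g ∈ Sf (0 : Fin 1) := fun g =>
      Subgroup.subset_closure fun k hk => absurd (Fin.eq_zero k) hk
    refine ⟨MonoidHom.mk' (σ 0) fun a b => hσ 0 a (htop a) b (htop b), fun j g _ => ?_,
      fun i hi => absurd hi (by omega)⟩
    rw [show j = 0 from Fin.eq_zero j]; rfl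
  | succ p ih =>
    intro σ μ hσ hSS hMM hMS
    obtain ⟨φ, hφS, hφM⟩ := ih (fun j g => σ j.succ (emb g)) (fun i g => μ i.succ (emb g))
      (fun j a ha b hb => by
        show σ j.succ (emb (a * b)) = _
        rw [map_mul, hσ j.succ _ (emb_Sf ha) _ (emb_Sf hb)])
      (fun j l h => (hSS j.succ l.succ fun e => h (Fin.succ_injective _ e)).pull (fun _ => emb_Sf) fun _ => emb_Sf)
      (fun i i' h hi hi' => (hMM i.succ i'.succ (fun e => h (Fin.succ_injective _ e))
        (by simp only [Fin.val_succ]; omega) (by simp only [Fin.val_succ]; omega)).pull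
        (fun _ => emb_Mf) fun _ => emb_Mf)
      (fun i j hi => (hMS i.succ j.succ (by simp only [Fin.val_succ]; omega)).pull (fun _ => emb_Mf) fun _ => emb_Sf)
    have h0 : ((0 : Fin (p + 2)) : ℕ) + 1 < p + 2 := by simp
    obtain ⟨ψ0, hψ0, hψ0M, hψ0S⟩ := hMS 0 0 h0
    obtain ⟨ψ1, hψ1, hψ1M, hψ1S⟩ := hMS 0 (0 : Fin (p + 1)).succ h0
    have hEm : ∀ c : F, E (ee 0) (c • ι (ee 0 : V F (p + 1))) ∈ Mf (0 : Fin (p + 2)) := fun c => by
      rw [ι_ee]; exact E_Mf (by simp) c
    have hTi : ∀ c : F, T (ι (ee 0 : V F (p + 1))) c ∈ Mf (0 : Fin (p + 2)) := fun c => by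
      rw [ι_ee]; exact T_ee_Mf (Or.inr (by simp)) c
    have hTiS : ∀ c : F, T (ι (ee 0 : V F (p + 1))) c ∈ Sf (0 : Fin (p + 1)).succ := fun c => by
      rw [ι_ee]; exact T_ee_Sf _ c
    have hkS : ∀ k ∈ fixι F p, k ∈ Sf (0 : Fin (p + 1)) := fun k hk => Subgroup.subset_closure fun l hl => by
      induction l using Fin.cases with
      | zero => exact absurd rfl hl
      | succ l => rw [← ι_ee, ← ι_ff]; exact ⟨hk _, hk _⟩
    have hTe : ∀ (j : Fin (p + 1)) (c : F), φ (T (ee j) c) = σ j.succ (T (ee j.succ) c) := fun j c => by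
      rw [hφS j _ (T_ee_Sf j c), emb_T, ι_ee]
    have hTf : ∀ (j : Fin (p + 1)) (c : F), φ (T (ff j) c) = σ j.succ (T (ff j.succ) c) := fun j c => by
      rw [hφS j _ (T_ff_Sf j c), emb_T, ι_ff]
    have hEe : ∀ (a b : Fin (p + 1)) (c : F), (a : ℕ) + 1 = b →
        φ (E (ee a) (c • ee b)) = μ a.succ (E (ee a.succ) (c • ee b.succ)) := fun a b c h => by
      rw [hφM a (by omega) _ (E_Mf h.symm c), emb_E, ι_smul, ι_ee, ι_ee]
    -- commuting with the first rank one member
    have hC : ∀ t ∈ Sf (0 : Fin (p + 2)), ∀ k, Commute (φ k) (ψ0 t) := by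
      intro t ht k
      rw [hψ0S t ht]
      obtain hf := of_mem_Sf ht
      have hk : k ∈ (Subgroup.centralizer {σ 0 t}).comap φ := by
        suffices h : Subgroup.closure (gset F (p + 1)) ≤ (Subgroup.centralizer {σ 0 t}).comap φ from
          h (gen (F := F) (p + 1) ▸ Subgroup.mem_top k)
        rw [Subgroup.closure_le]
        rintro g (⟨j, c, rfl⟩ | ⟨j, c, rfl⟩ | ⟨a, b, c, hab, rfl⟩) <;>
          rw [SetLike.mem_coe, Subgroup.mem_comap, Subgroup.mem_centralizer_singleton_iff]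
        · rw [hTe]
          exact (hSS j.succ 0 (Fin.succ_ne_zero j)).commute (T_ee_Sf _ c) ht
            (comm_T_of_fix (hf _ (Fin.succ_ne_zero j)).1 c).symm
        · rw [hTf]
          exact (hSS j.succ 0 (Fin.succ_ne_zero j)).commute (T_ff_Sf _ c) ht
            (comm_T_of_fix (hf _ (Fin.succ_ne_zero j)).2 c).symm
        · rw [hEe a b c hab]
          exact (hMS a.succ 0 (by simp only [Fin.val_succ]; omega)).commute (E_Mf (by simp [hab]) c) ht
            (comm_E_of_fix (hf _ (Fin.succ_ne_zero a)).1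
              (by rw [act_smul, (hf _ (Fin.succ_ne_zero b)).1])).symm
      exact Subgroup.mem_centralizer_singleton_iff.1 hk
    -- commuting with the first short root element
    have hA : ∀ k, act k (ee 0) = ee 0 → ∀ c : F, Commute (φ k) (ψ0 (E (ee 0) (c • ι (ee 0 : V F (p + 1))))) := by
      intro k hk c
      rw [hψ0M _ (hEm c)]
      set a := E (ee 0) (c • ι (ee 0 : V F (p + 1))) with ha
      obtain ⟨hfe, hff⟩ := of_mem_Mf (hEm c)
      rw [← ha] at hfe hff
      set K := (Subgroup.centralizer {μ 0 a}).comap φ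
      suffices hk' : k ∈ K from Subgroup.mem_centralizer_singleton_iff.1 hk'
      obtain ⟨x, z, k', rfl⟩ := fix_decomp hk
      have hemb : ∀ l, emb l ∈ K := fun l => by
        suffices h : Subgroup.closure (gset F p) ≤ K.comap emb from h (gen (F := F) p ▸ Subgroup.mem_top l)
        rw [Subgroup.closure_le]
        rintro g (⟨j, c', rfl⟩ | ⟨j, c', rfl⟩ | ⟨a', b', c', hab, rfl⟩) <;>
          rw [SetLike.mem_coe, Subgroup.mem_comap, Subgroup.mem_comap, Subgroup.mem_centralizer_singleton_iff]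
        · rw [emb_T, ι_ee, hTe]
          exact ((hMS 0 j.succ.succ h0).commute (hEm c) (T_ee_Sf _ c') (comm_T_of_fix (hfe _) c')).symm
        · rw [emb_T, ι_ff, hTf]
          exact ((hMS 0 j.succ.succ h0).commute (hEm c) (T_ff_Sf _ c')
            (comm_T_of_fix (hff _ (by simp) (by simp)) c')).symm
        · rw [emb_E, ι_smul, ι_ee, ι_ee, hEe _ _ c' (by simp [hab])]
          exact ((hMM 0 a'.succ.succ (Fin.succ_ne_zero _).symm h0 (by simp only [Fin.val_succ]; omega)).commute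
            (hEm c) (E_Mf (by simp [hab]) c') (comm_E_of_fix (hfe _) (by rw [act_smul, hfe]))).symm
      have hT : T (ee 0) z ∈ K := by
        rw [Subgroup.mem_comap, Subgroup.mem_centralizer_singleton_iff, hTe]
        exact ((hMS 0 (0 : Fin (p + 1)).succ h0).commute (hEm c) (T_ee_Sf _ z) (comm_T_of_fix (hfe _) z)).symm
      refine mul_mem (mul_mem ?_ hT) (hemb k')
      by_cases hx : x = 0
      · rw [hx, ι_zero, E_zero]; exact one_mem _
      cases p with
      | zero => exact absurd (Subsingleton.elim x 0) hx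
      | succ q =>
        obtain ⟨l, hl⟩ := trans_vec (F := F) (ee_ne_zero (0 : Fin (q + 1))) hx
        have e : E (ee 0) (ι x) = emb l * E (ee 0) ((1 : F) • ee (0 : Fin (q + 1)).succ) * (emb l)⁻¹ := by
          rw [E_conj, emb_ee, one_smul, ← ι_ee, emb_ι, hl]
        rw [e]
        refine mul_mem (mul_mem (hemb l) ?_) (inv_mem (hemb l))
        rw [Subgroup.mem_comap, Subgroup.mem_centralizer_singleton_iff, hEe _ _ _ (by simp)]
        exact ((hMM 0 (0 : Fin (q + 2)).succ (Fin.succ_ne_zero _).symm h0 (by simp only [Fin.val_succ]; simp)).commute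
          (hEm c) (E_Mf (by simp) 1) (comm_E_of_fix (hfe _) (by rw [act_smul, hfe]))).symm
    let D : Data F p H :=
      { hF := hF, φ := φ, A0 := Mf 0 ⊔ Sf 0, ψ0 := ψ0, hom0 := hψ0, A1 := Mf 0 ⊔ Sf (0 : Fin (p + 1)).succ,
        ψ1 := ψ1, hom1 := hψ1
        te0 := fun c => Subgroup.mem_sup_right (T_ee_Sf 0 c)
        tf0 := fun c => Subgroup.mem_sup_right (T_ff_Sf 0 c)
        e0 := fun c => Subgroup.mem_sup_left (hEm c)
        t10 := fun c => Subgroup.mem_sup_left (hTi c)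
        e1 := fun c => Subgroup.mem_sup_left (hEm c)
        te1 := fun c => Subgroup.mem_sup_left (T_ee_Mf (Or.inl rfl) c)
        k1 := fun k hk => Subgroup.mem_sup_right (emb_Sf (hkS k hk))
        agreeE := fun c => by rw [hψ1M _ (hEm c), hψ0M _ (hEm c)]
        agreeT := fun c => by rw [hψ1M _ (T_ee_Mf (Or.inl rfl) c), hψ0M _ (T_ee_Mf (Or.inl rfl) c)]
        agreeK := fun k hk => by rw [hψ1S _ (emb_Sf (hkS k hk)), hφS 0 k (hkS k hk)]
        agree10 := fun c => by
          rw [hψ0M _ (hTi c), ← hψ1M _ (hTi c), hψ1S _ (hTiS c), hTe, ι_ee]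
        commE := fun k c => hC _ (T_ee_Sf 0 c) k
        commF := fun k c => hC _ (T_ff_Sf 0 c) k
        commA := hA }
    obtain ⟨Φ, hK, hT0, hU0, hE0⟩ := D.exists_ext
    refine ⟨Φ, fun j => ?_, fun i => ?_⟩
    · induction j using Fin.cases with
      | zero =>
        intro g hg
        let K : Subgroup (G F (p + 2)) :=
          { carrier := {a | a ∈ Sf 0 ∧ Φ a = σ 0 a}
            one_mem' := ⟨one_mem _, by
              have h := hσ 0 1 (one_mem _) 1 (one_mem _)
              rw [one_mul, right_eq_mul] at h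
              rw [map_one, h]⟩
            mul_mem' := fun {a b} ha hb => ⟨mul_mem ha.1 hb.1, by
              rw [map_mul, ha.2, hb.2, hσ 0 a ha.1 b hb.1]⟩
            inv_mem' := fun {a} ha => ⟨inv_mem ha.1, by
              have h := hσ 0 a ha.1 a⁻¹ (inv_mem ha.1)
              have h1 := hσ 0 1 (one_mem _) 1 (one_mem _)
              rw [one_mul, right_eq_mul] at h1
              rw [mul_inv_cancel, h1, ← ha.2] at h
              rw [map_inv]
              exact inv_eq_of_mul_eq_one_right h.symm⟩ }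
        exact (plane_mem (K := K) (fun c => ⟨T_ee_Sf 0 c, (hT0 c).trans (hψ0S _ (T_ee_Sf 0 c))⟩)
          (fun c => ⟨T_ff_Sf 0 c, (hU0 c).trans (hψ0S _ (T_ff_Sf 0 c))⟩)
          (fun l => of_mem_Sf hg l.succ (Fin.succ_ne_zero l))).2
      | succ j =>
        intro g hg
        have hf := of_mem_Sf hg
        obtain ⟨k, rfl⟩ := exists_emb (hf 0 (Fin.succ_ne_zero j).symm).1 (hf 0 (Fin.succ_ne_zero j).symm).2
        have hk : k ∈ Sf j := Subgroup.subset_closure fun l hl => by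
          obtain ⟨a, b⟩ := hf l.succ fun e => hl (Fin.succ_injective _ e)
          rw [← ι_ee, emb_ι] at a
          rw [← ι_ff, emb_ι] at b
          exact ⟨ι_inj a, ι_inj b⟩
        rw [hK]
        exact hφS j k hk
    · induction i using Fin.cases with
      | zero =>
        intro _ g hg
        obtain ⟨hfe, hff⟩ := of_mem_Mf hg
        obtain ⟨c, z, z', rfl⟩ := slim_form hfe fun l => hff _ (by simp) (by simp)
        have m1 : E (ee 0) (c • ι (ee 0)) ∈ Mf (0 : Fin (p + 2)) ⊔ Sf 0 := Subgroup.mem_sup_left (hEm c)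
        have m2 : T (ee 0) z ∈ Mf (0 : Fin (p + 2)) ⊔ Sf 0 := Subgroup.mem_sup_right (T_ee_Sf 0 z)
        have m3 : T (ι (ee 0)) z' ∈ Mf (0 : Fin (p + 2)) ⊔ Sf 0 := Subgroup.mem_sup_left (hTi z')
        rw [map_mul, map_mul, hE0, hT0, ← emb_T, hK, emb_T, ← hψ0M _ hg, hψ0 _ (mul_mem m1 m2) _ m3,
          hψ0 _ m1 _ m2]
        exact congrArg _ (D.agree10 z').symm
      | succ i =>
        intro hi g hg
        obtain ⟨hfe, hff⟩ := of_mem_Mf hg
        obtain ⟨k, rfl⟩ := exists_emb (hfe 0) (hff 0 (by simp) (by simp))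
        have hk : k ∈ Mf i := Subgroup.subset_closure ⟨fun l => by
          have a := hfe l.succ
          rw [← ι_ee, emb_ι] at a
          exact ι_inj a, fun l a b => by
          have e := hff l.succ (by simp only [Fin.val_succ]; omega) (by simp only [Fin.val_succ]; omega)
          rw [← ι_ff, emb_ι] at e
          exact ι_inj e⟩
        rw [hK]
        exact hφM i (by simp only [Fin.val_succ] at hi; omega) k hk

theorem hom_ext {Φ Ψ : G F n →* H} (hS : ∀ j, ∀ g ∈ Sf j, Φ g = Ψ g)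
    (hM : ∀ i : Fin n, (i : ℕ) + 1 < n → ∀ g ∈ Mf i, Φ g = Ψ g) : Φ = Ψ := by
  refine MonoidHom.eq_of_eqOn_dense (gen (F := F) n) ?_
  rintro g (⟨j, c, rfl⟩ | ⟨j, c, rfl⟩ | ⟨a, b, c, hab, rfl⟩)
  · exact hS j _ (T_ee_Sf j c)
  · exact hS j _ (T_ff_Sf j c)
  · exact hM a (by omega) _ (E_Mf hab.symm c)

end Cfsg.Agent.Lib.SlimSp
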