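import Cfsg.Agent.Lib.SlimSp.Gen

/-!
# Extending a homomorphism by one rank

From a homomorphism on the smaller symplectic group and two amalgam members a lift of the stabilizer of the
first line is built; three of its double cosets form a subgroup which is a graph.
-/

set_option autoImplicit false

namespace Cfsg.Agent.Lib.SlimSp

open Matrix

universe u v

variable {F : Type u} [Field F]

/-- what is known before the step -/
structure Data (F : Type u) [Field F] (p : ℕ) (H : Type v) [Group H] where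
  hF : ∃ a : F, a ≠ 0 ∧ a ≠ 1
  φ : G F (p + 1) →* H
  A0 : Subgroup (G F (p + 2))
  ψ0 : G F (p + 2) → H
  hom0 : ∀ a ∈ A0, ∀ b ∈ A0, ψ0 (a * b) = ψ0 a * ψ0 b
  A1 : Subgroup (G F (p + 2))
  ψ1 : G F (p + 2) → H
  hom1 : ∀ a ∈ A1, ∀ b ∈ A1, ψ1 (a * b) = ψ1 a * ψ1 b
  te0 : ∀ c, T (ee 0) c ∈ A0
  tf0 : ∀ c, T (ff 0) c ∈ A0
  e0 : ∀ c : F, E (ee 0) (c • ι (ee 0)) ∈ A0
  t10 : ∀ c, T (ι (ee 0)) c ∈ A0
  e1 : ∀ c : F, E (ee 0) (c • ι (ee 0)) ∈ A1
  te1 : ∀ c, T (ee 0) c ∈ A1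
  k1 : ∀ k ∈ fixι F p, emb k ∈ A1
  agreeE : ∀ c : F, ψ1 (E (ee 0) (c • ι (ee 0))) = ψ0 (E (ee 0) (c • ι (ee 0)))
  agreeT : ∀ c, ψ1 (T (ee 0) c) = ψ0 (T (ee 0) c)
  agreeK : ∀ k ∈ fixι F p, ψ1 (emb k) = φ k
  agree10 : ∀ c, ψ0 (T (ι (ee 0)) c) = φ (T (ee 0) c)
  commE : ∀ k c, Commute (φ k) (ψ0 (T (ee 0) c))
  commF : ∀ k c, Commute (φ k) (ψ0 (T (ff 0) c))
  commA : ∀ k, act k (ee 0) = ee 0 → ∀ c : F, Commute (φ k) (ψ0 (E (ee 0) (c • ι (ee 0))))

namespace Data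

variable {p : ℕ} {H : Type v} [Group H] (D : Data F p H)

/-- lift in the first member -/
def l0 (a : G F (p + 2)) : G F (p + 2) × H := (a, D.ψ0 a)

/-- lift in the second member -/
def l1 (a : G F (p + 2)) : G F (p + 2) × H := (a, D.ψ1 a)

theorem l0_mul {a b : G F (p + 2)} (ha : a ∈ D.A0) (hb : b ∈ D.A0) : D.l0 a * D.l0 b = D.l0 (a * b) :=
  Prod.ext rfl (D.hom0 a ha b hb).symm

theorem l1_mul {a b : G F (p + 2)} (ha : a ∈ D.A1) (hb : b ∈ D.A1) : D.l1 a * D.l1 b = D.l1 (a * b) :=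
  Prod.ext rfl (D.hom1 a ha b hb).symm

theorem l0_one : D.l0 1 = 1 := by
  have h := D.l0_mul (one_mem D.A0) (one_mem D.A0)
  rw [one_mul, mul_eq_left] at h
  exact h

theorem l0_inv {a : G F (p + 2)} (ha : a ∈ D.A0) : (D.l0 a)⁻¹ = D.l0 a⁻¹ :=
  inv_eq_of_mul_eq_one_right (by rw [D.l0_mul ha (inv_mem ha), mul_inv_cancel, D.l0_one])

theorem l1_one : D.l1 1 = 1 := by
  have h := D.l1_mul (one_mem D.A1) (one_mem D.A1)
  rw [one_mul, mul_eq_left] at h
  exact h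

theorem l1_inv {a : G F (p + 2)} (ha : a ∈ D.A1) : (D.l1 a)⁻¹ = D.l1 a⁻¹ :=
  inv_eq_of_mul_eq_one_right (by rw [D.l1_mul ha (inv_mem ha), mul_inv_cancel, D.l1_one])

/-- lift of the smaller group -/
def KP : G F (p + 1) →* G F (p + 2) × H := emb.prod D.φ

/-- lift of the long root group -/
def ZP (z : F) : G F (p + 2) × H := D.l0 (T (ee 0) z)

/-- the torus -/
def HP (a : F) : G F (p + 2) × H := D.l0 (hh (ee 0) (ff 0) a)

/-- the Weyl element -/
def W : G F (p + 2) × H := D.l0 (wv (ee 0) (ff 0) 1)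

/-- the first radical element -/
def A : G F (p + 2) × H := D.l0 (E (ee 0) ((1 : F) • ι (ee 0)))

open Classical in
/-- the radical -/
noncomputable def QP (x : V F (p + 1)) : G F (p + 2) × H :=
  if h : x = 0 then 1 else
    D.KP (trans_vec (ee_ne_zero 0) h).choose * D.A * (D.KP (trans_vec (ee_ne_zero 0) h).choose)⁻¹

theorem QP_zero : D.QP 0 = 1 := by rw [QP, dif_pos rfl]

theorem KP_A {k : G F (p + 1)} (h : act k (ee 0) = ee 0) : Commute (D.KP k) D.A := by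
  refine Prod.ext ?_ (D.commA k h 1)
  show emb k * E (ee 0) ((1 : F) • ι (ee 0)) = E (ee 0) ((1 : F) • ι (ee 0)) * emb k
  rw [← mul_inv_eq_iff_eq_mul, E_conj, emb_ee, act_smul, emb_ι, h]

theorem QP_eq {x : V F (p + 1)} {k : G F (p + 1)} (h : act k (ee 0) = x) :
    D.QP x = D.KP k * D.A * (D.KP k)⁻¹ := by
  have hx : x ≠ 0 := fun e => ee_ne_zero (0 : Fin (p + 1)) (act_inj k (by rw [h, e, act_zero]))
  rw [QP, dif_neg hx]
  have hc := (trans_vec (F := F) (ee_ne_zero (0 : Fin (p + 1))) hx).choose_spec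
  set j := (trans_vec (F := F) (ee_ne_zero (0 : Fin (p + 1))) hx).choose
  have e := D.KP_A (k := k⁻¹ * j) (by rw [act_mul, hc, ← h, act_inv_act])
  rw [show D.KP j = D.KP k * D.KP (k⁻¹ * j) by rw [← map_mul, mul_inv_cancel_left]]
  calc _ = D.KP k * (D.KP (k⁻¹ * j) * D.A * (D.KP (k⁻¹ * j))⁻¹) * (D.KP k)⁻¹ := by group
    _ = _ := by rw [e.eq, mul_inv_cancel_right]

theorem QP_fst (x : V F (p + 1)) : (D.QP x).1 = E (ee 0) (ι x) := by
  by_cases hx : x = 0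
  · rw [hx, QP_zero, ι_zero, E_zero]; rfl
  obtain ⟨k, hk⟩ := trans_vec (F := F) (ee_ne_zero (0 : Fin (p + 1))) hx
  rw [D.QP_eq hk]
  show emb k * E _ _ * (emb k)⁻¹ = _
  rw [E_conj, emb_ee, one_smul, emb_ι, hk]

theorem KP_QP (k : G F (p + 1)) (x : V F (p + 1)) : D.KP k * D.QP x = D.QP (act k x) * D.KP k := by
  by_cases hx : x = 0
  · rw [hx, act_zero, QP_zero, one_mul, mul_one]
  obtain ⟨j, hj⟩ := trans_vec (F := F) (ee_ne_zero (0 : Fin (p + 1))) hx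
  rw [D.QP_eq hj, D.QP_eq (k := k * j) (by rw [act_mul, hj]), map_mul]
  group

theorem QP_plane {k : G F (p + 1)} (hk : k ∈ fixι F p) :
    D.QP (act k (ee 0)) = D.l1 (E (ee 0) (ι (act k (ee 0)))) := by
  have e1 : D.KP k = D.l1 (emb k) := Prod.ext rfl (D.agreeK k hk).symm
  have e2 : D.A = D.l1 (E (ee 0) ((1 : F) • ι (ee 0))) := Prod.ext rfl (D.agreeE 1).symm
  rw [D.QP_eq rfl, e1, e2, D.l1_inv (D.k1 k hk), D.l1_mul (D.k1 k hk) (D.e1 1),
    D.l1_mul (mul_mem (D.k1 k hk) (D.e1 1)) (inv_mem (D.k1 k hk)), E_conj, emb_ee, one_smul, emb_ι]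

theorem plane_mem1 (α β : F) (h : α ≠ 0 ∨ β ≠ 0) :
    ∃ k ∈ fixι F p, act k (ee 0) = α • ee 0 + β • ff 0 :=
  exists_plane (om_ee_ff _) T_ee_fix T_ff_fix α β h

theorem QP_span (α β : F) :
    D.QP (α • ee 0 + β • ff 0) = D.l1 (E (ee 0) (ι (α • ee 0 + β • ff 0))) ∧
      E (ee 0) (ι (α • ee 0 + β • ff 0)) ∈ D.A1 := by
  by_cases h : α ≠ 0 ∨ β ≠ 0
  · obtain ⟨k, hk, e⟩ := plane_mem1 α β h
    rw [← e]
    refine ⟨D.QP_plane hk, ?_⟩
    have : E (ee 0) (ι (act k (ee 0))) = emb k * E (ee 0) ((1 : F) • ι (ee 0)) * (emb k)⁻¹ := by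
      rw [E_conj, emb_ee, one_smul, emb_ι]
    rw [this]
    exact mul_mem (mul_mem (D.k1 k hk) (D.e1 1)) (inv_mem (D.k1 k hk))
  · push_neg at h
    rw [h.1, h.2, zero_smul, zero_smul, add_zero, QP_zero, ι_zero, E_zero, l1_one]
    exact ⟨rfl, one_mem _⟩

theorem QP_smul_ee (c : F) : D.QP (c • ee 0) = D.l0 (E (ee 0) (c • ι (ee 0))) := by
  have := (D.QP_span c 0).1
  rw [zero_smul, add_zero, ι_smul] at this
  rw [this]
  exact Prod.ext rfl (D.agreeE c)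

theorem ZP_l1 (z : F) : D.ZP z = D.l1 (T (ee 0) z) := Prod.ext rfl (D.agreeT z).symm

theorem ZP_add (a b : F) : D.ZP a * D.ZP b = D.ZP (a + b) := by
  rw [ZP, ZP, ZP, D.l0_mul (D.te0 a) (D.te0 b), T_add]

theorem ZP_zero : D.ZP 0 = 1 := by rw [ZP, T_zero, l0_one]

theorem T_emb_commute (k : G F (p + 1)) (c : F) : Commute (emb k) (T (ee 0) c) := by
  show emb k * _ = _ * emb k
  rw [← mul_inv_eq_iff_eq_mul, T_conj, emb_ee]

theorem T_emb_commute' (k : G F (p + 1)) (c : F) : Commute (emb k) (T (ff 0) c) := by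
  show emb k * _ = _ * emb k
  rw [← mul_inv_eq_iff_eq_mul, T_conj, emb_ff]

/-- what centralizes the smaller group -/
def C0 : Subgroup (G F (p + 2)) where
  carrier := {a | a ∈ D.A0 ∧ ∀ k, Commute (D.KP k) (D.l0 a)}
  one_mem' := ⟨one_mem _, fun k => by rw [D.l0_one]; exact Commute.one_right _⟩
  mul_mem' := fun {a b} ha hb => ⟨mul_mem ha.1 hb.1, fun k => by
    rw [← D.l0_mul ha.1 hb.1]; exact (ha.2 k).mul_right (hb.2 k)⟩
  inv_mem' := fun {a} ha => ⟨inv_mem ha.1, fun k => by rw [← D.l0_inv ha.1]; exact (ha.2 k).inv_right⟩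

theorem te_C0 (c : F) : T (ee 0) c ∈ D.C0 :=
  ⟨D.te0 c, fun k => Prod.ext (T_emb_commute k c) (D.commE k c)⟩

theorem tf_C0 (c : F) : T (ff 0) c ∈ D.C0 :=
  ⟨D.tf0 c, fun k => Prod.ext (T_emb_commute' k c) (D.commF k c)⟩

theorem hh_C0 (a : F) : hh (ee 0) (ff 0) a ∈ D.C0 := hh_mem D.te_C0 D.tf_C0 a

theorem wv_C0 : wv (ee 0) (ff 0) 1 ∈ D.C0 := wv_mem D.te_C0 D.tf_C0 1

theorem KP_ZP (k : G F (p + 1)) (z : F) : Commute (D.KP k) (D.ZP z) := (D.te_C0 z).2 k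

theorem KP_HP (k : G F (p + 1)) (a : F) : Commute (D.KP k) (D.HP a) := (D.hh_C0 a).2 k

theorem KP_W (k : G F (p + 1)) : Commute (D.KP k) D.W := D.wv_C0.2 k

theorem ZP_QP (z : F) (x : V F (p + 1)) : Commute (D.ZP z) (D.QP x) := by
  by_cases hx : x = 0
  · rw [hx, QP_zero]; exact Commute.one_right _
  obtain ⟨k, hk⟩ := trans_vec (F := F) (ee_ne_zero (0 : Fin (p + 1))) hx
  rw [D.QP_eq hk]
  refine ((D.KP_ZP k z).symm.mul_right ?_).mul_right (D.KP_ZP k z).symm.inv_right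
  show D.l0 _ * D.l0 _ = D.l0 _ * D.l0 _
  rw [D.l0_mul (D.te0 z) (D.e0 1), D.l0_mul (D.e0 1) (D.te0 z), (T_comm_E (by simp) z).eq]

/-- the product rule on a given pair -/
def Good (x y : V F (p + 1)) : Prop := D.QP x * D.QP y = D.QP (x + y) * D.ZP (om x y)

theorem good_conj {x y : V F (p + 1)} (k : G F (p + 1)) (h : D.Good x y) : D.Good (act k x) (act k y) := by
  have e : ∀ v, D.QP (act k v) = D.KP k * D.QP v * (D.KP k)⁻¹ := fun v => by
    rw [D.KP_QP, mul_inv_cancel_right]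
  show D.QP _ * D.QP _ = D.QP _ * D.ZP _
  rw [← act_add, om_act, e, e, e]
  calc _ = D.KP k * (D.QP x * D.QP y) * (D.KP k)⁻¹ := by group
    _ = D.KP k * D.QP (x + y) * (D.ZP (om x y) * (D.KP k)⁻¹) := by rw [h]; group
    _ = _ := by rw [(D.KP_ZP k _).inv_left.symm.eq]; group

theorem good_plane (α β γ δ : F) : D.Good (α • ee 0 + β • ff 0) (γ • ee 0 + δ • ff 0) := by
  have hs : α • ee 0 + β • ff 0 + (γ • ee 0 + δ • ff 0) = (α + γ) • ee 0 + (β + δ) • (ff 0 : V F (p + 1)) := by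
    module
  show D.QP _ * D.QP _ = D.QP _ * D.ZP _
  obtain ⟨e1, m1⟩ := D.QP_span α β
  obtain ⟨e2, m2⟩ := D.QP_span γ δ
  obtain ⟨e3, m3⟩ := D.QP_span (α + γ) (β + δ)
  rw [e1, e2, hs, e3, ZP_l1, D.l1_mul m1 m2, D.l1_mul m3 (D.te1 _),
    E_mul (by simp) (by simp), om_ι, ← ι_add, hs]

theorem good_nonorth {x y : V F (p + 1)} (h : om x y ≠ 0) : D.Good x y := by
  have hx : x ≠ 0 := fun e => h (by rw [e, om_zero_left])
  obtain ⟨k, hk⟩ := trans_vec (F := F) (ee_ne_zero (0 : Fin (p + 1))) hx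
  set y' := act k⁻¹ y with hy
  have hb : y' (.inr 0) ≠ 0 := by
    rw [← om_ee (0 : Fin (p + 1)) y', hy, ← om_act k, act_act_inv, hk]; exact h
  let j : G F (p + 1) :=
    E (ee 0) (ι ((y' (.inr 0))⁻¹ • tl y')) * T (ee 0) (y' (.inl 0) / y' (.inr 0))
  have je : act j (ee 0) = ee 0 := by simp [j, act_mul, act_T, act_E, om_self]
  have jf : act j (y' (.inr 0) • ff 0) = y' := by
    simp only [j, act_mul]
    conv_rhs => rw [decomp y']
    simp only [act_T, act_E (om_ee0_ι _), om_ee_ff, om_add_right, om_smul_right, om_self, om_ι_ee0, om_ι_ff0]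
    rw [ι_smul]
    match_scalars <;> field_simp <;> ring
  have := D.good_conj (k * j) (D.good_plane 1 0 0 (y' (.inr 0)))
  rw [one_smul, zero_smul, zero_smul, add_zero, zero_add, act_mul k j, act_mul k j, je, jf, hk, hy, act_act_inv] at this
  exact this

theorem good (x y : V F (p + 1)) : D.Good x y := by
  by_cases hx : x = 0
  · subst hx; show _ = _; rw [QP_zero, one_mul, zero_add, om_zero_left, ZP_zero, mul_one]
  by_cases h : om x y ≠ 0
  · exact D.good_nonorth h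
  push_neg at h
  obtain ⟨k, hk⟩ := trans_vec (F := F) (ee_ne_zero (0 : Fin (p + 1))) hx
  set y' := act k⁻¹ y with hy
  have hb : y' (.inr 0) = 0 := by
    rw [← om_ee (0 : Fin (p + 1)) y', hy, ← om_act k, act_act_inv, hk]; exact h
  suffices hg : D.Good (ee 0) y' by
    have := D.good_conj k hg
    rwa [hk, hy, act_act_inv] at this
  by_cases hr : tl y' = 0
  · have := D.good_plane 1 0 (y' (.inl 0)) 0
    rw [one_smul, zero_smul, add_zero, add_zero] at this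
    rwa [decomp y', hb, hr, ι_zero, zero_smul, add_zero, add_zero]
  obtain ⟨a, ha0, ha1⟩ := D.hF
  obtain ⟨s, hs⟩ := exists_om_ne _ hr
  set y1 : V F (p + 1) := ff 0 + ι (((-a - y' (.inl 0)) / om (tl y') s) • s) with hy1
  have o1 : om (ee 0) y1 = 1 := by simp [hy1, om_add_right]
  have o2 : om (ee 0) y' = 0 := by rw [om_ee, hb]
  have o3 : om y' y1 = -a := by
    conv_lhs => rw [decomp y', hb]
    simp only [hy1, zero_smul, add_zero, om_add_left, om_add_right, om_smul_left, om_ee_ff, om_ee0_ι, om_ι_ff0,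
      om_ι, om_smul_right]
    field_simp
    ring
  have o4 : om y1 y' = a := by rw [om_swap, o3, neg_neg]
  have o5 : om y1 (y' - y1) = a := by rw [om_sub_right, o4, om_self, sub_zero]
  have g1 : D.Good (ee 0) y1 := D.good_nonorth (by rw [o1]; exact one_ne_zero)
  have g2 : D.Good y1 (y' - y1) := D.good_nonorth (by rw [o5]; exact ha0)
  have o6 : om (ee 0 + y1) (y' - y1) = a - 1 := by
    rw [om_add_left, o5, om_sub_right, o2, o1]; ring
  have g3 : D.Good (ee 0 + y1) (y' - y1) := D.good_nonorth (by rw [o6]; exact sub_ne_zero.2 ha1)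
  have g2' : D.QP y' = D.QP y1 * D.QP (y' - y1) * D.ZP (-a) := by
    have g2'' : D.QP y1 * D.QP (y' - y1) = _ := g2
    rw [g2'', add_sub_cancel, o5, mul_assoc, ZP_add, add_neg_cancel, ZP_zero, mul_one]
  show D.QP (ee 0) * D.QP y' = _
  have g1' : D.QP (ee 0) * D.QP y1 = _ := g1
  have g3' : D.QP (ee 0 + y1) * D.QP (y' - y1) = _ := g3
  rw [g2', ← mul_assoc, ← mul_assoc, g1', mul_assoc (D.QP _) (D.ZP _) (D.QP _), (D.ZP_QP _ _).eq, ← mul_assoc,
    g3', mul_assoc, mul_assoc, ZP_add, ZP_add, o1, o2, o6, show a - 1 + (1 + -a) = 0 by ring,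
    show ee 0 + y1 + (y' - y1) = ee 0 + y' by abel]

theorem QP_mul (x y : V F (p + 1)) : D.QP x * D.QP y = D.QP (x + y) * D.ZP (om x y) := D.good x y

theorem QP_inv (x : V F (p + 1)) : (D.QP x)⁻¹ = D.QP (-x) :=
  inv_eq_of_mul_eq_one_right (by rw [D.QP_mul, add_neg_cancel, QP_zero, om_neg_right, om_self, neg_zero, ZP_zero,
    mul_one])

theorem HP_mul {a b : F} (ha : a ≠ 0) (hb : b ≠ 0) : D.HP a * D.HP b = D.HP (a * b) := by
  rw [HP, HP, HP, D.l0_mul (D.hh_C0 a).1 (D.hh_C0 b).1]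
  congr 1
  refine ext_basis ?_ ?_ fun x => ?_
  · simp only [act_mul, hh_left (om_ee_ff _) hb, hh_left (om_ee_ff _) ha, hh_left (om_ee_ff _) (mul_ne_zero ha hb),
      act_smul, smul_smul, mul_comm b a]
  · simp only [act_mul, hh_right (om_ee_ff _) hb, hh_right (om_ee_ff _) ha, hh_right (om_ee_ff _) (mul_ne_zero ha hb),
      act_smul, smul_smul, _root_.mul_inv_rev]
  · simp only [act_mul, hh_perp (om_ee0_ι x) (om_ff0_ι x)]

theorem HP_one : D.HP 1 = 1 := by rw [HP, hh, mul_inv_cancel, l0_one]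

theorem HP_inv {a : F} (ha : a ≠ 0) : (D.HP a)⁻¹ = D.HP a⁻¹ :=
  inv_eq_of_mul_eq_one_right (by rw [D.HP_mul ha (inv_ne_zero ha), mul_inv_cancel₀ ha, HP_one])

theorem HP_ZP {a : F} (ha : a ≠ 0) (z : F) : D.HP a * D.ZP z = D.ZP (a ^ 2 * z) * D.HP a := by
  rw [HP, ZP, ZP, D.l0_mul (D.hh_C0 a).1 (D.te0 _), D.l0_mul (D.te0 _) (D.hh_C0 a).1, ← T_smul,
    ← hh_left (om_ee_ff (0 : Fin (p + 2))) ha, ← T_conj, inv_mul_cancel_right]

theorem HP_QP {a : F} (ha : a ≠ 0) (x : V F (p + 1)) : D.HP a * D.QP x = D.QP (a • x) * D.HP a := by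
  by_cases hx : x = 0
  · rw [hx, smul_zero, QP_zero, mul_one, one_mul]
  obtain ⟨k, hk⟩ := trans_vec (F := F) (ee_ne_zero (0 : Fin (p + 1))) hx
  have base : D.HP a * D.QP (ee 0) = D.QP (a • ee 0) * D.HP a := by
    have e := D.QP_smul_ee 1
    rw [one_smul] at e
    rw [e, D.QP_smul_ee, HP, D.l0_mul (D.hh_C0 a).1 (by simpa using D.e0 1),
      D.l0_mul (D.e0 a) (D.hh_C0 a).1]
    congr 1
    rw [← mul_inv_eq_iff_eq_mul, E_conj, hh_left (om_ee_ff _) ha,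
      hh_perp (by simp) (by simp), one_smul, E_smul (by simp)]
  have e : ∀ v, D.QP (act k v) = D.KP k * D.QP v * (D.KP k)⁻¹ := fun v => by
    rw [D.KP_QP, mul_inv_cancel_right]
  rw [← hk, ← act_smul, e, e]
  calc _ = (D.HP a * D.KP k) * D.QP (ee 0) * (D.KP k)⁻¹ := by group
    _ = D.KP k * (D.HP a * D.QP (ee 0)) * (D.KP k)⁻¹ := by rw [← (D.KP_HP k a).eq]; group
    _ = D.KP k * D.QP (a • ee 0) * (D.HP a * (D.KP k)⁻¹) := by rw [base]; group
    _ = _ := by rw [(D.KP_HP k a).inv_left.symm.eq]; group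

end Data

end Cfsg.Agent.Lib.SlimSp
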